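import Mathlib
import Cfsg.Agent.SYL.NEx1

/-! Symmetric configurations of two Sylow subgroups. -/

set_option autoImplicit false

namespace CL.NEx

open Subgroup CL.MSS CL.MacW CL.SR16 Cfsg

variable {G : Type*} [Group G]

/-- `P x y`: the pair `(x, y)` is conjugate to `(u, z)` or `(u z, z)`; `K` is the class of `z` -/
structure PS (P : G → G → Prop) (K : G → Prop) : Prop where
  cj : ∀ {x y : G} (g : G), P x y → P (g * x * g⁻¹) (g * y * g⁻¹)
  mul : ∀ {x y : G}, P x y → P (x * y) y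
  k : ∀ {x y : G}, P x y → K y
  nk : ∀ {x y : G}, P x y → ¬ K x
  kc : ∀ {y : G} (g : G), K y → K (g * y * g⁻¹)
  conj : ∀ {y y' : G}, K y → K y' → IsConj y y'
  k1 : ¬ K 1
  uq : ∀ {x y y' : G} {Q : Subgroup G}, P x y → P x y' → IsPGroup 2 Q → x ∈ Q → y ∈ Q → y' ∈ Q →
    y = y'

theorem PS.cen {P : G → G → Prop} {K : G → Prop} (h : PS P K) {x y r : G} {Q : Subgroup G}
    (p : P x y) (hQ : IsPGroup 2 Q) (hx : x ∈ Q) (hy : y ∈ Q) (hr : r ∈ Q) (e : r * x = x * r) :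
    r * y = y * r := by
  have := h.cj r p
  rw [cj_eq.2 e] at this
  exact cj_eq.1 (h.uq this p hQ hx (mul_mem (mul_mem hr hy) (inv_mem hr)) hy)

structure Cfg (P : G → G → Prop) (K : G → Prop) (m : ℕ) (S : Subgroup G) (z u : G) : Prop
    extends Loc S z u where
  ps : PS P K
  pr : P u z
  mx : ∀ k ∈ S, K k → k ≠ z → Nat.card ↥(S ⊓ centralizer {k}) ≤ m

variable {P : G → G → Prop} {K : G → Prop} {m : ℕ} {S S' : Subgroup G} {z u t v : G}

namespace Cfg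

variable (h : Cfg P K m S z u)
include h

theorem cj (g : G) : Cfg P K m (g •ᶜ S) (g * z * g⁻¹) (g * u * g⁻¹) :=
  { h.toLoc.cj g with
    ps := h.ps
    pr := h.ps.cj g h.pr
    mx := fun k hk h1 h2 => by
      obtain ⟨k, hk', rfl⟩ := mem_cj'.1 hk
      rw [← cj_centralizer_singleton, ← cj_inf, card_cj]
      exact h.mx k hk' (by simpa [mul_assoc] using h.ps.kc g⁻¹ h1) fun e => h2 (by rw [e]) }

theorem kz : K z := h.ps.k h.pr

theorem kU {k : G} (hk : k ∈ fr z u) (h1 : K k) : k = z := by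
  rcases h.memU hk with e | e | e | e
  · exact absurd (e ▸ h1) h.ps.k1
  · exact e
  · exact absurd (e ▸ h1) (h.ps.nk h.pr)
  · exact absurd (e ▸ h1) (h.ps.nk (h.ps.mul h.pr))

theorem pU {x y : G} (hx : x ∈ fr z u) (x1 : x ≠ 1) (p : P x y) (yS : y ∈ S) : y = z := by
  rcases h.memU hx with e | e | e | e
  · exact absurd e x1
  · exact absurd (e ▸ h.kz) (h.ps.nk p)
  · exact h.ps.uq p (e ▸ h.pr) h.syl.pgroup (h.US hx) yS h.zS
  · exact h.ps.uq p (e ▸ h.ps.mul h.pr) h.syl.pgroup (h.US hx) yS h.zS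

end Cfg

structure Sym (P : G → G → Prop) (K : G → Prop) (m : ℕ) (S S' R : Subgroup G) (z u t v : G) :
    Prop where
  c : Cfg P K m S z u
  c' : Cfg P K m S' t v
  tS : t ∈ S
  zS : z ∈ S'
  tz : t ≠ z
  e : S ⊓ centralizer {t} = R
  e' : S' ⊓ centralizer {z} = R
  card : Nat.card R = m

variable {R : Subgroup G}

theorem Cfg.exists_sym [Finite G] (h : Cfg P K m S z u) (tS : t ∈ S) (kt : K t) (tz : t ≠ z)
    (hm : Nat.card ↥(S ⊓ centralizer {t}) = m) :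
    ∃ S' v, Sym P K m S S' (S ⊓ centralizer {t}) z u t v := by
  obtain ⟨T, rfl⟩ := sylIn_top_iff.1 h.syl
  obtain ⟨g, g1, g2⟩ := CL.P2.conj_cen T h.zc (h.ps.conj kt h.kz)
  have c' := h.cj g⁻¹
  rw [← g1, show g⁻¹ * (g * t * g⁻¹) * g⁻¹⁻¹ = t by group] at c'
  have le : (T : Subgroup G) ⊓ centralizer {t} ≤ g⁻¹ •ᶜ (T : Subgroup G) := fun x hx => by
    rw [mem_cj, inv_inv]; exact g2 x hx.1 (mem_c.1 hx.2)
  have zS := le ⟨h.zS, mem_c.2 (h.zc t tS).symm⟩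
  exact ⟨_, _, h, c', tS, zS, tz, rfl, (eq_of_le_of_card_ge
    (le_inf le fun x hx => mem_c.2 (h.zc x hx.1)) (hm ▸ c'.mx z zS h.kz tz.symm)).symm, hm⟩

namespace Sym

variable (h : Sym P K m S S' R z u t v)
include h

theorem symm : Sym P K m S' S R t v z u := ⟨h.c', h.c, h.zS, h.tS, h.tz.symm, h.e', h.e, h.card⟩

theorem mem {r : G} : r ∈ R ↔ r ∈ S ∧ r * t = t * r := by rw [← h.e, mem_inf, mem_c]

theorem RS : R ≤ S := fun _ hr => (h.mem.1 hr).1

theorem rt {r : G} (hr : r ∈ R) : r * t = t * r := (h.mem.1 hr).2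

theorem tR : t ∈ R := h.mem.2 ⟨h.tS, rfl⟩

theorem kt : K t := h.c'.kz

theorem cases {s : G} (hs : s ∈ S) (e : s * t * s⁻¹ = t) : s ∈ R := h.mem.2 ⟨hs, cj_eq.1 e⟩

theorem cj_ne {s : G} (hs : s ∈ S) : s * t * s⁻¹ ≠ z := fun e =>
  h.tz (cj_inj' (e.trans (h.c.cjz hs).symm))

theorem cj_cen {s : G} (hs : s ∈ normalizer (R : Set G)) {k : G} (hk : ∀ r ∈ R, r * k = k * r) :
    ∀ r ∈ R, r * (s * k * s⁻¹) = s * k * s⁻¹ * r := CL.P2.norm_cen hs hk

variable [Finite G]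

theorem max {k : G} (kS : k ∈ S) (hk : K k) (kz : k ≠ z) (hc : ∀ r ∈ R, r * k = k * r) {x : G}
    (xS : x ∈ S) (e : x * k = k * x) : x ∈ R := by
  rw [eq_of_le_of_card_ge (le_inf h.RS fun r hr => mem_c.2 (hc r hr) : R ≤ S ⊓ centralizer {k})
    (h.card ▸ h.c.mx k kS hk kz)]
  exact ⟨xS, mem_c.2 e⟩

theorem norm {s : G} (hs : s ∈ S) (e : s * t * s⁻¹ = z * t) : s ∈ normalizer (R : Set G) := by
  refine mem_normalizer_of_cj_le (cj_le_iff_forall.2 fun r hr => ?_)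
  have m := mul_mem (mul_mem hs (h.RS hr)) (inv_mem hs)
  have := cj_cm s (h.rt hr)
  rw [e, ← mul_assoc, h.c.zc _ m, mul_assoc z, mul_assoc z] at this
  exact h.mem.2 ⟨m, mul_left_cancel this⟩

theorem ncm (n : t * u ≠ u * t) : z * v ≠ v * z := fun e => by
  have vS := h.RS (h.symm.mem.2 ⟨h.c'.uS, e.symm⟩)
  by_cases e' : v * u = u * v
  · exact n (h.c.ps.cen h.c'.pr h.c.syl.pgroup vS h.tS h.c.uS e'.symm).symm
  · exact n (h.c.ps.cen (h.c.ps.mul h.c'.pr) h.c.syl.pgroup (mul_mem vS h.tS) h.tS h.c.uS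
      (h.c.two vS h.tS e' n).symm).symm

theorem three (n : t * u ≠ u * t) {k : G} (kS : k ∈ S) (hk : K k) (hc : ∀ r ∈ R, r * k = k * r) :
    k = z ∨ k = t ∨ k = z * t := by
  have n' := h.ncm n
  have c2 : ∀ {k}, k ∈ S → K k → (∀ r ∈ R, r * k = k * r) → k * u = u * k → k = z :=
    fun kS hk hc e => by_contra fun kz => n (h.rt (h.max kS hk kz hc h.c.uS e.symm)).symm
  have kR : k ∈ R := h.mem.2 ⟨kS, (hc t h.tR).symm⟩
  by_cases kz : k = z
  · exact Or.inl kz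
  by_cases kt : k = t
  · exact Or.inr (Or.inl kt)
  have e1 := h.c'.mv' (h.symm.RS kR) fun e =>
    n' (h.symm.rt (h.symm.max (h.symm.RS kR) hk kt hc h.c'.uS e.symm)).symm
  have := c2 (mul_mem h.tS kS) (e1 ▸ h.c.ps.kc v hk)
    (fun r hr => (Commute.mul_right (h.rt hr) (hc r hr)).eq)
    (h.c.two h.tS kS n fun e => kz (c2 kS hk hc e))
  exact Or.inr (Or.inr (by rw [← h.c.zc t h.tS, ← this, ← mul_assoc, h.c'.zz, one_mul]))

theorem comm (hG : ∀ H : Subgroup G, H.index ≠ 2) : t * u = u * t := by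
  have : Fact (Nat.Prime 2) := ⟨Nat.prime_two⟩
  by_contra n
  have n' := h.ncm n
  have a1 := h.c.mv' h.tS n
  have a2 := h.c'.mv' h.zS n'
  have uN := h.norm h.c.uS a1
  have vN := h.symm.norm h.c'.uS a2
  have zN : z ∉ sqc R := fun hz => by
    have := cj_sqc (fun r hr => conj_mem_of_normalizes le_rfl vN hr) (conj_mem_cj hz)
    rw [a2] at this
    have := mem_c.1 (sqc_le (W := centralizer {u}) (fun r hr => mem_c.2 (h.c.sq_cm (h.RS hr))) this)
    rw [mul_assoc, ← h.c.cm, ← mul_assoc, ← mul_assoc] at this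
    exact n (mul_right_cancel this)
  have two' : ∀ s ∈ S, (∀ r ∈ R, r * (s * t * s⁻¹) = s * t * s⁻¹ * r) → s ∈ R ∨ u * s ∈ R :=
    fun s hs hc => by
      rcases h.three n (mul_mem (mul_mem hs h.tS) (inv_mem hs)) (h.c.ps.kc s h.kt) hc with e | e | e
      · exact absurd e (h.cj_ne hs)
      · exact Or.inl (h.cases hs e)
      · refine Or.inr (h.cases (mul_mem h.c.uS hs) ?_)
        rw [show u * s * t * (u * s)⁻¹ = u * (s * t * s⁻¹) * u⁻¹ by group, e, ← conj_mul, a1,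
          h.c.cjz h.c.uS, ← mul_assoc, h.c.zz, one_mul]
  have two : ∀ s ∈ S ⊓ normalizer (R : Set G), s ∈ R ∨ u * s ∈ R := fun s hs =>
    two' s hs.1 (h.cj_cen hs.2 fun r hr => h.rt hr)
  have uR : u ∉ R := fun e => n (h.rt e).symm
  have RR : R ≤ S ⊓ normalizer (R : Set G) := le_inf h.RS le_normalizer
  by_cases hS : S ≤ normalizer (R : Set G)
  · have hb : sqc R = ⊥ := by_contra fun hb => zN (h.c.z_mem ⟨t, h.tS, n⟩
      (sqc_le fun r hr => h.RS (mul_mem hr hr)) (le_normalizer_of_cj_le fun s hs =>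
        cj_sqc fun r hr => conj_mem_of_normalizes hS hs hr) hb)
    have R2 : ∀ r ∈ R, r * r = 1 := fun r hr => mem_bot.1 (hb ▸ sq_mem_sqc hr)
    obtain ⟨T, rfl⟩ := sylIn_top_iff.1 h.c.syl
    obtain ⟨g, g1, -⟩ := CL.P2.ext_transfer hG T (M := R) (relIndex_eq_two_iff.2 ⟨u, h.c.uS,
      fun b hb => by
        by_cases e : b ∈ R
        · exact Or.inr ⟨e, fun e' => uR ((R.mul_mem_cancel_left e).1 e')⟩
        · refine Or.inl ⟨?_, e⟩
          simpa [mul_assoc] using conj_mem_of_normalizes' le_rfl uN ((two b ⟨hb, hS hb⟩).resolve_left e)⟩)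
      h.RS h.c.uS fun k a _ => by
        rw [pow_mul, sq, h.c.uu, one_pow, mul_one, mul_inv_cancel]; exact one_mem _
    have nk := h.c.ps.nk (h.c.ps.cj g h.c.pr)
    rcases mem_four (h.c.le4 R h.RS hS R2) R2 h.symm.tR h.tR h.c.z1 h.c'.z1 h.tz.symm _ g1 with
      e | e | e | e
    · exact h.c.u1 (by simpa using e)
    · exact nk (e ▸ h.c.kz)
    · exact nk (e ▸ h.kt)
    · exact nk (by rw [e, ← a1]; exact h.c.ps.kc u h.kt)
  obtain ⟨s, ⟨s1, s2⟩, s3⟩ := SetLike.exists_of_lt (lt_inf_normalizer_of_lt h.c.syl.pgroup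
    (lt_of_le_not_ge inf_le_left fun hh => hS (hh.trans inf_le_right) :
      S ⊓ normalizer (R : Set G) < S))
  have t1 := conj_mem_of_normalizes le_rfl s2 (RR h.tR)
  have n1 : s * t * s⁻¹ * u ≠ u * (s * t * s⁻¹) := fun e =>
    n (by simpa [mul_assoc] using h.c.cm_cj (inv_mem s1) t1.1 e)
  rcases two _ t1 with tR | tR
  · obtain ⟨r, hr, e⟩ : ∃ r ∈ R, r * (s * t * s⁻¹) ≠ s * t * s⁻¹ * r := by
      by_contra hh
      push Not at hh
      exact s3 ((two' s s1 hh).elim (fun e => RR e) fun e =>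
        (Subgroup.mul_mem_cancel_left _ (mem_inf.2 ⟨h.c.uS, uN⟩)).1 (RR e))
    have k : ∀ {x}, x ∈ S ⊓ normalizer (R : Set G) → x * (s * t * s⁻¹) ≠ s * t * s⁻¹ * x →
        u * (s⁻¹ * x * s) ∈ R := fun hx e =>
      (two _ (conj_mem_of_normalizes' le_rfl s2 hx)).resolve_left fun e' => e (by
        simpa [mul_assoc] using cj_cm s (h.rt e'))
    have e1 := cj_cm s (h.rt (mul_mem (inv_mem (k ⟨h.c.uS, uN⟩ n1.symm)) (k (RR hr) e)))
    rw [show s * ((u * (s⁻¹ * u * s))⁻¹ * (u * (s⁻¹ * r * s))) * s⁻¹ = u⁻¹ * r by group,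
      ← cj_eq] at e1
    have := comm_mem_sqc hr tR
    rw [show r * (s * t * s⁻¹) * r⁻¹ = u * (u⁻¹ * r * (s * t * s⁻¹) * (u⁻¹ * r)⁻¹) * u⁻¹ by group,
      e1, h.c.mv' t1.1 n1, mul_inv_cancel_right] at this
    exact zN this
  · have := sq_mem_sqc tR
    rw [mul_assoc, ← mul_assoc (s * t * s⁻¹), mul_inv_eq_iff_eq_mul.1 (h.c.mv t1.1 n1), mul_assoc,
      conj_mul, h.c'.zz, mul_one, mul_inv_cancel, mul_one, ← mul_assoc, h.c.uu, one_mul] at this
    exact zN this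

end Sym

end CL.NEx
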