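import Mathlib
import Cfsg.Agent.SYL.NEx2

/-! The elementary abelian subgroup of order 16 of a symmetric configuration. -/

set_option autoImplicit false

namespace CL.NEx

open Subgroup CL.MSS CL.MacW CL.SR16 Cfsg

variable {G : Type*} [Group G]

theorem pcm {x y x' y' : G} (a1 : x' * x * x'⁻¹ = x ∨ x' * x * x'⁻¹ = x * y)
    (a2 : x * x' * x⁻¹ = x' ∨ x * x' * x⁻¹ = x' * y') (c : x * y = y * x) (c' : x' * y' = y' * x')
    (yy : y * y = 1) (ne : y ≠ y') : x * x' = x' * x := by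
  rcases a1 with a1 | a1
  · exact (cj_eq.1 a1).symm
  rcases a2 with a2 | a2
  · exact cj_eq.1 a2
  rw [c, ← mul_inv_eq_iff_eq_mul] at a1
  rw [c', ← mul_inv_eq_iff_eq_mul] at a2
  refine absurd ?_ ne
  rw [← inv_of_sq yy, ← a1, ← a2]; group

structure Sy2 (P : G → G → Prop) (K : G → Prop) (m : ℕ) (S S' R : Subgroup G) (z u t v : G) :
    Prop extends Sym P K m S S' R z u t v where
  tu : t * u = u * t
  zv : z * v = v * z

variable {P : G → G → Prop} {K : G → Prop} {m : ℕ} {S S' R : Subgroup G} {z u t v : G}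

namespace Sy2

variable (h : Sy2 P K m S S' R z u t v)
include h

theorem sw : Sy2 P K m S' S R t v z u := ⟨h.toSym.symm, h.zv, h.tu⟩

theorem uR : u ∈ R := h.mem.2 ⟨h.c.uS, h.tu.symm⟩

theorem UR : fr z u ≤ R := fr_le h.symm.tR h.uR

theorem uv : u * v = v * u :=
  pcm (h.c.un v (h.RS h.sw.uR)) (h.c'.un u (h.symm.RS h.uR)) h.c.cm h.c'.cm h.c.zz h.tz.symm

theorem UV : fr z u ≤ centralizer (fr t v : Set G) :=
  fr_le (le_centralizer_iff.1 (fr_le (H := centralizer (zpowers z : Set G))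
    (by rw [zpowers_eq_closure, centralizer_closure]; exact mem_c.2 (h.c.zc t h.tS))
    (by rw [zpowers_eq_closure, centralizer_closure]; exact mem_c.2 h.zv.symm)) (mem_zpowers z))
  (le_centralizer_iff.1 (fr_le (H := centralizer (zpowers u : Set G))
    (by rw [zpowers_eq_closure, centralizer_closure]; exact mem_c.2 h.tu)
    (by rw [zpowers_eq_closure, centralizer_closure]; exact mem_c.2 h.uv.symm)) (mem_zpowers u))

theorem inf {x : G} (h1 : x ∈ fr z u) (h2 : x ∈ fr t v) : x = 1 := by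
  by_contra x1
  rcases h.c'.memU h2 with e | e | e | e
  · exact x1 e
  · exact h.tz (e ▸ h.c.kU h1 (e ▸ h.kt))
  · exact h.tz (h.c.pU h1 x1 (e ▸ h.c'.pr) h.tS)
  · exact h.tz (h.c.pU h1 x1 (e ▸ h.c.ps.mul h.c'.pr) h.tS)

theorem uniq {a b a' b' : G} (ha : a ∈ fr z u) (hb : b ∈ fr t v) (ha' : a' ∈ fr z u)
    (hb' : b' ∈ fr t v) (e : a * b = a' * b') : a = a' ∧ b = b' := by
  have e1 : a'⁻¹ * a = b' * b⁻¹ := by rw [inv_mul_eq_iff_eq_mul, ← mul_assoc, ← e]; group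
  have := h.inf (mul_mem (inv_mem ha') ha) (e1 ▸ mul_mem hb' (inv_mem hb))
  exact ⟨(inv_mul_eq_one.1 this).symm, (mul_inv_eq_one.1 (e1 ▸ this)).symm⟩

theorem memE {x : G} (hx : x ∈ fr z u ⊔ fr t v) : ∃ a ∈ fr z u, ∃ b ∈ fr t v, x = a * b :=
  mem_sup_cm (h.UV.trans (centralizer_le_normalizer _)) hx

theorem E2 : ∀ a ∈ fr z u ⊔ fr t v, a * a = 1 := sq_sup' h.c.U2 h.c'.U2 h.UV

theorem ER : fr z u ⊔ fr t v ≤ R := sup_le h.UR h.sw.UR

theorem cenE {x : G} (xS : x ∈ S) (e1 : x * u = u * x) (e2 : x * t = t * x) (e3 : x * v = v * x) :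
    ∀ a ∈ fr z u ⊔ fr t v, a * x = x * a := fun _ ha =>
  mem_c.1 (sup_le (fr_le (mem_c.2 (h.c.zc x xS).symm) (mem_c.2 e1.symm))
    (fr_le (mem_c.2 e2.symm) (mem_c.2 e3.symm)) ha)

variable [Finite G]

theorem E16 : Nat.card ↥(fr z u ⊔ fr t v) = 16 := by
  have := CL.PN.card_sup_mul_card_inf (h.UV.trans (centralizer_le_normalizer _))
  rwa [(eq_bot_iff_forall (fr z u ⊓ fr t v)).2 fun x hx => h.inf hx.1 hx.2, card_bot, mul_one, h.c.U4, h.c'.U4]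
    at this

theorem inE {x : G} (xS : x ∈ S) (xx : x * x = 1) (e1 : x * u = u * x) (e2 : x * t = t * x)
    (e3 : x * v = v * x) : x ∈ fr z u ⊔ fr t v :=
  h.c.mem_of_16 (h.ER.trans h.RS) h.E2 h.E16 xS xx (h.cenE xS e1 e2 e3)

theorem cj_un {w : G} (hw : w ∈ normalizer (R : Set G)) {r : G} (hr : r ∈ R) :
    r * (w * v * w⁻¹) * r⁻¹ = w * v * w⁻¹ ∨
      r * (w * v * w⁻¹) * r⁻¹ = w * v * w⁻¹ * (w * t * w⁻¹) :=
  (h.c'.toLoc.cj w).un r (by rw [mem_cj]; exact h.symm.RS (conj_mem_of_normalizes' le_rfl hw hr))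

theorem cj_inE {w : G} (hw : w ∈ S ⊓ normalizer (R : Set G)) :
    w * t * w⁻¹ ∈ fr z u ⊔ fr t v ∧ w * v * w⁻¹ ∈ fr z u ⊔ fr t v := by
  by_cases wR : w ∈ R
  · exact ⟨mem_sup_right (h.c'.cjU (h.symm.RS wR) (conj_mem_cj (left_mem_fr _ _))),
      mem_sup_right (h.c'.cjU (h.symm.RS wR) (conj_mem_cj (right_mem_fr _ _)))⟩
  have c := h.cj_cen hw.2 fun r hr => h.rt hr
  have c' := h.c'.toLoc.cj w
  have m := conj_mem_of_normalizes le_rfl hw.2 h.sw.uR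
  refine ⟨h.inE (h.RS (conj_mem_of_normalizes le_rfl hw.2 h.tR)) c'.zz (c _ h.uR).symm
    (c _ h.tR).symm (c _ h.sw.uR).symm, h.inE (h.RS m) c'.uu ?_ (h.rt m) ?_⟩
  · exact pcm (h.cj_un hw.2 h.uR) (h.c.un _ (h.RS m)) c'.cm h.c.cm c'.zz (h.cj_ne hw.1)
  · exact pcm (h.cj_un hw.2 h.sw.uR) (h.c'.un _ (h.symm.RS m)) c'.cm h.c'.cm c'.zz
      fun e => wR (h.cases hw.1 e)

theorem normE : S ⊓ normalizer (R : Set G) ≤ normalizer ((fr z u ⊔ fr t v : Subgroup G) : Set G) :=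
  le_normalizer_of_cj_le fun w hw => by
    rw [cj_sup]
    refine sup_le ((h.c.cjU hw.1).trans le_sup_left) (cj_le_iff.2 (fr_le ?_ ?_))
    · rw [mem_cj, inv_inv]; exact (h.cj_inE hw).1
    · rw [mem_cj, inv_inv]; exact (h.cj_inE hw).2

theorem lt : S ⊓ normalizer (R : Set G) < S := lt_of_le_not_ge inf_le_left fun hh => by
  have := h.c.le4 _ (h.ER.trans h.RS) (hh.trans h.normE) h.E2
  rw [h.E16] at this
  omega

theorem exists_w : ∃ w ∈ S ⊓ normalizer (R : Set G), w ∉ R := by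
  have : Fact (Nat.Prime 2) := ⟨Nat.prime_two⟩
  exact SetLike.exists_of_lt (lt_inf_normalizer_of_lt h.c.syl.pgroup
    ((le_inf h.RS le_normalizer).trans_lt h.lt))

theorem exists_s : ∃ s ∈ S ⊓ normalizer ((S ⊓ normalizer (R : Set G) : Subgroup G) : Set G),
    s ∉ S ⊓ normalizer (R : Set G) := by
  have : Fact (Nat.Prime 2) := ⟨Nat.prime_two⟩
  exact SetLike.exists_of_lt (lt_inf_normalizer_of_lt h.c.syl.pgroup h.lt)

omit [Finite G] in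
theorem pair_ne {x y a b : G} (p : P x y) (x1 : x ≠ 1) (yR : y ∈ R) (yz : y ≠ z) (yt : y ≠ t)
    (ha : a ∈ fr z u) (hb : b ∈ fr t v) (e : x = a * b) : a ≠ 1 ∧ b ≠ 1 :=
  ⟨fun e' => yt (h.c'.pU (by rw [e, e', one_mul]; exact hb) x1 p (h.symm.RS yR)),
    fun e' => yz (h.c.pU (by rw [e, e', mul_one]; exact ha) x1 p (h.RS yR))⟩

theorem dich {w : G} (hw : w ∈ S ⊓ normalizer (R : Set G)) (wR : w ∉ R) {r : G} (hr : r ∈ R)
    (n : ¬ (r * u = u * r ∧ r * v = v * r)) : w * t * w⁻¹ = z * t ∧ r * u ≠ u * r ∧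
      r * v ≠ v * r ∧ ∃ a b, (a = u ∨ a = u * z) ∧ (b = v ∨ b = v * t) ∧ w * v * w⁻¹ = a * b := by
  obtain ⟨a0, ha0, b0, hb0, e0⟩ := h.memE (h.cj_inE hw).1
  obtain ⟨a, ha, b, hb, e⟩ := h.memE (h.cj_inE hw).2
  have c' := h.c'.cj w
  have tR := conj_mem_of_normalizes le_rfl hw.2 h.tR
  have n1 := h.cj_ne hw.1
  have n2 : w * t * w⁻¹ ≠ t := fun e => wR (h.cases hw.1 e)
  have a01 : a0 ≠ 1 := fun e' => n2 (h.c'.kU (by rw [e0, e', one_mul]; exact hb0) c'.kz)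
  have b01 : b0 ≠ 1 := fun e' => n1 (h.c.kU (by rw [e0, e', mul_one]; exact ha0) c'.kz)
  have ep : w * v * w⁻¹ * (w * t * w⁻¹) = a * a0 * (b * b0) := by
    rw [e, e0, mul_assoc, ← mul_assoc b, h.UV ha0 b hb]; group
  obtain ⟨a1, b1⟩ := h.pair_ne c'.pr c'.u1 tR n1 n2 ha hb e
  obtain ⟨a2, b2⟩ := h.pair_ne (h.c.ps.mul c'.pr) c'.swap.u1 tR n1 n2 (mul_mem ha ha0)
    (mul_mem hb hb0) ep
  have cU : ∀ {x}, x ∈ fr z u → r * x * r⁻¹ ∈ fr z u := fun hx => h.c.cjU (h.RS hr) (conj_mem_cj hx)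
  have cV : ∀ {x}, x ∈ fr t v → r * x * r⁻¹ ∈ fr t v :=
    fun hx => h.c'.cjU (h.symm.RS hr) (conj_mem_cj hx)
  obtain ⟨f1, f2⟩ := h.uniq (cU ha0) (cV hb0) ha0 hb0 (by
    rw [conj_mul, ← e0]; exact cj_eq.2 (h.cj_cen hw.2 (fun r hr => h.rt hr) r hr))
  have key : ∀ {S z u}, Loc S z u → r ∈ S → ∀ {a a0}, a ∈ fr z u → a0 ∈ fr z u → a ≠ 1 → a0 ≠ 1 →
      a * a0 ≠ 1 → r * a0 * r⁻¹ = a0 → (r * a * r⁻¹ = a → r * u = u * r) ∧
        (r * a * r⁻¹ = a * a0 → r * u ≠ u * r ∧ a0 = z ∧ (a = u ∨ a = u * z)) := by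
    intro S z u l rS a a0 ha ha0 a1 a01 a2 f
    refine ⟨fun e => ?_, fun e => ?_⟩
    · rcases mem_four l.U4.le l.U2 ha ha0 a1 a01 (fun e => a2 (by rw [← e, l.U2 a ha])) u
        (right_mem_fr _ _) with e' | e' | e' | e' <;> rw [e', ← cj_eq]
      · simp
      · exact e
      · exact f
      · rw [← conj_mul, e, f]
    have nu : r * u ≠ u * r := fun e' => a01 (by
      rw [cj_eq.2 (mem_c.1 (fr_le (mem_c.2 (l.zc r rS).symm) (mem_c.2 e'.symm) ha)).symm] at e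
      exact left_eq_mul.1 e)
    have a0z : a0 = z := by
      rcases l.memU ha0 with e' | e' | e' | e'
      · exact absurd e' a01
      · exact e'
      · exact absurd (cj_eq.1 (e' ▸ f)) nu
      · rw [e', ← conj_mul, l.cjz rS] at f
        exact absurd (cj_eq.1 (mul_right_cancel f)) nu
    refine ⟨nu, a0z, ?_⟩
    rcases l.memU ha with e' | e' | e' | e'
    · exact absurd e' a1
    · exact absurd (by rw [e', a0z, l.zz]) a2
    · exact Or.inl e'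
    · exact Or.inr e'
  have k1 := key h.c.toLoc (h.RS hr) ha ha0 a1 a01 a2 f1
  have k2 := key h.c'.toLoc (h.symm.RS hr) hb hb0 b1 b01 b2 f2
  rcases h.cj_un hw.2 hr with e' | e'
  · rw [e, ← conj_mul] at e'
    obtain ⟨g1, g2⟩ := h.uniq (cU ha) (cV hb) ha hb e'
    exact absurd ⟨k1.1 g1, k2.1 g2⟩ n
  · rw [ep, e, ← conj_mul] at e'
    obtain ⟨g1, g2⟩ := h.uniq (cU ha) (cV hb) (mul_mem ha ha0) (mul_mem hb hb0) e'
    obtain ⟨p1, p2, p3⟩ := k1.2 g1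
    obtain ⟨q1, q2, q3⟩ := k2.2 g2
    exact ⟨by rw [e0, p2, q2], p1, q1, a, b, p3, q3, e⟩

theorem coset (hc : ∀ r ∈ R, r * u = u * r ∧ r * v = v * r) {x : G} (hx : x ∈ fr t v) (x1 : x ≠ 1)
    {a : G} (ha : a ∈ fr z u) : IsConj x (a * x) := by
  obtain ⟨s, ⟨s1, s2⟩, s3⟩ := h.exists_s
  have RR : R ≤ S ⊓ normalizer (R : Set G) := le_inf h.RS le_normalizer
  have cR : ∀ x ∈ fr t v, x ≠ 1 → ∀ r ∈ S, r * x = x * r → r ∈ R := fun x hx x1 r rS e => by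
    rcases h.c'.memU hx with e' | e' | e' | e'
    · exact absurd e' x1
    · exact h.mem.2 ⟨rS, e' ▸ e⟩
    · exact h.mem.2 ⟨rS, h.c.ps.cen h.c'.pr h.c.syl.pgroup (h.RS h.sw.uR) h.tS rS (e' ▸ e)⟩
    · exact h.mem.2 ⟨rS, h.c.ps.cen (h.c.ps.mul h.c'.pr) h.c.syl.pgroup
        (h.RS (mul_mem h.sw.uR h.tR)) h.tS rS (e' ▸ e)⟩
  have cE : ∀ r ∈ R, ∀ e ∈ fr z u ⊔ fr t v, e * r = r * e := fun r hr =>
    h.cenE (h.RS hr) (hc r hr).1 (h.rt hr) (hc r hr).2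
  have nR : ∀ y ∈ fr t v, s * y * s⁻¹ ∈ R → y = 1 := fun y hy yR => by_contra fun y1 => by
    have yE := h.inE (h.RS yR) (by rw [conj_mul, h.c'.U2 y hy, mul_one, mul_inv_cancel])
      (hc _ yR).1 (h.rt yR) (hc _ yR).2
    refine s3 ⟨s1, (normalizer (R : Set G)).inv_mem_iff.1
      (mem_normalizer_of_cj_le (cj_le_iff_forall.2 fun r hr => ?_))⟩
    rw [inv_inv]
    exact cR y hy y1 _ (mul_mem (mul_mem (inv_mem s1) (h.RS hr)) s1) (cj_cm' (cE r hr _ yE)).symm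
  have cU : ∀ y ∈ fr t v, s * y * s⁻¹ * x * (s * y * s⁻¹)⁻¹ * x⁻¹ ∈ fr z u := fun y hy => by
    have m1 := conj_mem_of_normalizes le_rfl s2 (RR (h.sw.UR hy))
    have m2 := conj_mem_of_normalizes' le_rfl s2 (RR (h.sw.UR hx))
    have k1 := mul_mem (conj_mem_of_normalizes h.normE m1 (mem_sup_right hx))
      (inv_mem (mem_sup_right hx))
    obtain ⟨a', ha', b', hb', e⟩ := h.memE (mul_mem (mem_sup_right hy)
      (conj_mem_of_normalizes h.normE m2 (inv_mem (mem_sup_right hy))))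
    have e' : s * y * s⁻¹ * x * (s * y * s⁻¹)⁻¹ * x⁻¹ = s * a' * s⁻¹ * (s * b' * s⁻¹) := by
      rw [conj_mul, ← e]; group
    have m3 := h.c.cjU s1 (conj_mem_cj ha')
    rw [e'] at k1 ⊢
    rwa [nR b' hb' ((R.mul_mem_cancel_left (h.UR m3)).1 (h.ER k1)), mul_one, mul_inv_cancel,
      mul_one]
  have n1 : ∀ y ∈ fr t v, y ≠ 1 → s * y * s⁻¹ * x * (s * y * s⁻¹)⁻¹ * x⁻¹ ≠ 1 := fun y hy y1 e =>
    y1 (nR y hy (cR x hx x1 _ (conj_mem_of_normalizes le_rfl s2 (RR (h.sw.UR hy))).1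
      (cj_eq.1 (mul_inv_eq_one.1 e))))
  have cj : ∀ y, a = y * x * y⁻¹ * x⁻¹ → IsConj x (a * x) := fun y e =>
    isConj_iff.2 ⟨y, by rw [e, inv_mul_cancel_right]⟩
  have mt := left_mem_fr t v
  have mv := right_mem_fr t v
  have em : s * (v * t) * s⁻¹ * x * (s * (v * t) * s⁻¹)⁻¹ * x⁻¹ =
      s * t * s⁻¹ * x * (s * t * s⁻¹)⁻¹ * x⁻¹ * (s * v * s⁻¹ * x * (s * v * s⁻¹)⁻¹ * x⁻¹) := by
    have := cj_cm s (h.UV (h.c.cjU (inv_mem s1) (conj_mem_cj (cU t mt))) v mv)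
    rw [show ∀ c, s * (s⁻¹ * c * s⁻¹⁻¹) * s⁻¹ = c from fun c => by group] at this
    calc _ = s * v * s⁻¹ * (s * t * s⁻¹ * x * (s * t * s⁻¹)⁻¹ * x⁻¹) *
          (x * (s * v * s⁻¹)⁻¹ * x⁻¹) := by group
      _ = _ := by rw [this]; group
  rcases mem_four h.c.U4.le h.c.U2 (cU t mt) (cU v mv) (n1 t mt h.c'.z1) (n1 v mv h.c'.u1)
    (fun e => n1 _ (mul_mem mv mt) h.c'.swap.u1 (by rw [em, e, h.c.U2 _ (cU v mv)])) a ha with
    e | e | e | e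
  · rw [e, one_mul]
  · exact cj _ e
  · exact cj _ e
  · exact cj _ (e.trans em.symm)

theorem caseC (hc : ∀ r ∈ R, r * u = u * r ∧ r * v = v * r) : False := by
  obtain ⟨g, e⟩ := isConj_iff.1 (h.coset hc (left_mem_fr t v) h.c'.z1 (right_mem_fr z u))
  obtain ⟨g', e'⟩ := isConj_iff.1
    (h.sw.coset (fun r hr => (hc r hr).symm) (right_mem_fr z u) h.c.u1 (left_mem_fr t v))
  exact h.c.ps.nk (h.c.ps.cj g' h.c.pr) (by rw [e', h.tu, ← e]; exact h.c.ps.kc g h.kt)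

end Sy2

end CL.NEx
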