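import Mathlib
import Cfsg.Agent.SYL.NEx3

/-! No symmetric configuration exists. -/

set_option autoImplicit false

namespace CL.NEx

open Subgroup CL.MSS CL.MacW CL.SR16 Cfsg

variable {G : Type*} [Group G] {P : G → G → Prop} {K : G → Prop} {m : ℕ} {S S' R : Subgroup G}
  {z u t v : G}

theorem PS.x1 (h : PS P K) {x y : G} (p : P x y) : x ≠ 1 := fun e =>
  h.nk (h.mul p) (by rw [e, one_mul]; exact h.k p)

namespace Sy2

variable (h : Sy2 P K m S S' R z u t v)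
include h

theorem memA {x : G} (hx : x ∈ fr z t) : x = 1 ∨ x = z ∨ x = t ∨ x = t * z :=
  mem_fr h.c.zz h.c'.zz (h.c.zc t h.tS) hx

theorem cmE {a b : G} (ha : a ∈ fr z u ⊔ fr t v) (hb : b ∈ fr z u ⊔ fr t v) : a * b = b * a :=
  cm_of_sq h.E2 ha hb

theorem uvab {a b : G} (ha : a = u ∨ a = u * z) (hb : b = v ∨ b = v * t) :
    u * v * (a * b) ∈ fr z t := by
  have e : u * v * (a * b) = u * a * (v * b) := by
    have : v * a = a * v := by
      rcases ha with rfl | rfl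
      · exact h.uv.symm
      · exact (Commute.mul_right h.uv.symm h.zv.symm).eq
    rw [mul_assoc, ← mul_assoc v, this]; group
  rw [e]
  refine mul_mem ?_ ?_
  · rcases ha with rfl | rfl
    · rw [h.c.uu]; exact one_mem _
    · rw [← mul_assoc, h.c.uu, one_mul]; exact left_mem_fr _ _
  · rcases hb with rfl | rfl
    · rw [h.c'.uu]; exact one_mem _
    · rw [← mul_assoc, h.c'.uu, one_mul]; exact right_mem_fr _ _

theorem cosets {e : G} (he : e ∈ fr z u ⊔ fr t v) :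
    e ∈ fr z t ∨ u * e ∈ fr z t ∨ v * e ∈ fr z t ∨ u * v * e ∈ fr z t := by
  obtain ⟨a, ha, b, hb, rfl⟩ := h.memE he
  have k1 : a ∈ fr z t ∨ a = u ∨ a = u * z := by
    rcases h.c.memU ha with e | e | e | e
    · exact Or.inl (e ▸ one_mem _)
    · exact Or.inl (e ▸ left_mem_fr _ _)
    · exact Or.inr (Or.inl e)
    · exact Or.inr (Or.inr e)
  have k2 : b ∈ fr z t ∨ b = v ∨ b = v * t := by
    rcases h.c'.memU hb with e | e | e | e
    · exact Or.inl (e ▸ one_mem _)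
    · exact Or.inl (e ▸ right_mem_fr _ _)
    · exact Or.inr (Or.inl e)
    · exact Or.inr (Or.inr e)
  rcases k1 with k1 | k1 <;> rcases k2 with k2 | k2
  · exact Or.inl (mul_mem k1 k2)
  · refine Or.inr (Or.inr (Or.inl ?_))
    rw [← mul_assoc, h.UV ha v (right_mem_fr _ _), mul_assoc]
    refine mul_mem k1 ?_
    rcases k2 with rfl | rfl
    · rw [h.c'.uu]; exact one_mem _
    · rw [← mul_assoc, h.c'.uu, one_mul]; exact right_mem_fr _ _
  · refine Or.inr (Or.inl ?_)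
    rw [← mul_assoc]
    refine mul_mem ?_ k2
    rcases k1 with rfl | rfl
    · rw [h.c.uu]; exact one_mem _
    · rw [← mul_assoc, h.c.uu, one_mul]; exact left_mem_fr _ _
  · exact Or.inr (Or.inr (Or.inr (h.uvab k1 k2)))

variable [Finite G] {r : G} (hr : r ∈ R) (n : ¬ (r * u = u * r ∧ r * v = v * r))
include hr n

theorem move : (∃ x ∈ fr z u ⊔ fr t v, ∃ k ∈ fr z u ⊔ fr t v, P x k ∧ v * k ∈ fr z t) ↔
    ∃ x ∈ fr z u ⊔ fr t v, ∃ k ∈ fr z u ⊔ fr t v, P x k ∧ u * v * k ∈ fr z t := by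
  obtain ⟨w, hw, wR⟩ := h.exists_w
  obtain ⟨e1, -, -, a, b, ha, hb, e2⟩ := h.dich hw wR hr n
  have nA : w ∈ normalizer (fr z t : Set G) := mem_normalizer_of_cj_le (cj_le_iff.2 (fr_le
    (by rw [mem_cj, inv_inv, h.c.cjz hw.1]; exact left_mem_fr _ _)
    (by rw [mem_cj, inv_inv, e1]; exact mul_mem (left_mem_fr _ _) (right_mem_fr _ _))))
  have m := h.uvab ha hb
  have sq : a * b * (a * b) = 1 := by rw [← e2, conj_mul, h.c'.uu, mul_one, mul_inv_cancel]
  constructor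
  · rintro ⟨x, hx, k, hk, p, e⟩
    refine ⟨_, conj_mem_of_normalizes h.normE hw hx, _, conj_mem_of_normalizes h.normE hw hk,
      h.c.ps.cj w p, ?_⟩
    have := mul_mem m (conj_mem_of_normalizes le_rfl nA e)
    rwa [← conj_mul, e2, mul_assoc, ← mul_assoc (a * b), sq, one_mul] at this
  · rintro ⟨x, hx, k, hk, p, e⟩
    refine ⟨_, conj_mem_of_normalizes h.normE (inv_mem hw) hx, _,
      conj_mem_of_normalizes h.normE (inv_mem hw) hk, h.c.ps.cj w⁻¹ p, ?_⟩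
    have := conj_mem_of_normalizes' le_rfl nA (mul_mem (inv_mem m) e)
    rwa [mul_inv_rev, inv_of_sq sq, ← e2, show w⁻¹ * (w * v * w⁻¹ * (u * v)⁻¹ * (u * v * k)) * w =
      v * (w⁻¹ * k * w⁻¹⁻¹) by group] at this

theorem kA {x : G} (hx : x ∈ fr z t) (x1 : x ≠ 1) : K x := by
  obtain ⟨w, hw, wR⟩ := h.exists_w
  rcases h.memA hx with e | e | e | e
  · exact absurd e x1
  · exact e ▸ h.c.kz
  · exact e ▸ h.kt
  · rw [e, h.c.zc t h.tS, ← (h.dich hw wR hr n).1]; exact h.c.ps.kc w h.kt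

theorem noP {x k : G} (hx : x ∈ fr z u ⊔ fr t v) (hk : k ∈ fr z u ⊔ fr t v) (p : P x k) :
    k ∈ fr z t := by
  have ps := h.c.ps
  have m1 := h.move hr n
  have m2 := h.sw.move hr fun e => n e.symm
  rw [sup_comm, ← h.uv, show fr t z = fr z t by rw [fr, Set.pair_comm, fr], ← m1] at m2
  by_contra kA
  obtain ⟨x2, hx2, k2, hk2, p2, e2⟩ : ∃ x ∈ fr z u ⊔ fr t v, ∃ k ∈ fr z u ⊔ fr t v,
      P x k ∧ v * k ∈ fr z t := by
    rcases h.cosets hk with e | e | e | e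
    · exact absurd e kA
    · exact m2.1 ⟨x, hx, k, hk, p, e⟩
    · exact ⟨x, hx, k, hk, p, e⟩
    · exact m1.2 ⟨x, hx, k, hk, p, e⟩
  obtain ⟨x1, hx1, k1, hk1, p1, e1⟩ := m2.2 ⟨x2, hx2, k2, hk2, p2, e2⟩
  obtain ⟨w, hw, wR⟩ := h.exists_w
  have mv := h.c'.mv (h.symm.RS hr) (h.dich hw wR hr n).2.2.1
  have ev : ∀ {y c}, v * y = c → y = v * c := fun e => by rw [← e, ← mul_assoc, h.c'.uu, one_mul]
  have c1 : r * (v * z) * r⁻¹ = v * (t * z) := by
    rw [← conj_mul, mv, h.c.cjz (h.RS hr), mul_assoc]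
  have c2 : r * (v * (t * z)) * r⁻¹ = v * z := by
    rw [← conj_mul, ← conj_mul, mv, h.c.cjz (h.RS hr), cj_eq.2 (h.rt hr), mul_assoc, ← mul_assoc t,
      h.c'.zz, one_mul]
  have kk : K (v * z) ∧ K (v * (t * z)) := by
    have := ps.k p2
    rcases h.memA e2 with e | e | e | e <;> rw [ev e] at this
    · exact absurd (mul_one v ▸ this) (ps.nk h.c'.pr)
    · exact ⟨this, c1 ▸ ps.kc r this⟩
    · exact absurd this (ps.nk (ps.mul h.c'.pr))
    · exact ⟨c2 ▸ ps.kc r this, this⟩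
  have uE : u ∈ fr z u ⊔ fr t v := mem_sup_left (right_mem_fr _ _)
  have f1 : ∀ {x}, P x k1 → x ∉ fr z t := fun p e => ps.nk p (h.kA hr n e (ps.x1 p))
  have f2 : ∀ {x}, P x k1 → v * x ∉ fr z t := fun {x} p e => by
    have g : x ∉ fr t v := fun e' => by
      rw [h.c'.pU e' (ps.x1 p) p (h.symm.RS (h.ER hk1)),
        Subgroup.mul_mem_cancel_right _ (right_mem_fr _ _)] at e1
      exact ps.nk h.c.pr (h.kA hr n e1 h.c.u1)
    rcases h.memA e with e | e | e | e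
    · exact g (by rw [ev e, mul_one]; exact right_mem_fr _ _)
    · exact ps.nk p (ev e ▸ kk.1)
    · exact g (by rw [ev e]; exact mul_mem (right_mem_fr _ _) (left_mem_fr _ _))
    · exact ps.nk p (ev e ▸ kk.2)
  have e3 : u * x1 * (u * k1) = x1 * k1 := by
    rw [h.cmE uE hx1, mul_assoc, ← mul_assoc u, h.c.uu, one_mul]
  rcases h.cosets hx1 with e | e | e | e
  · exact f1 p1 e
  · exact f1 (ps.mul p1) (e3 ▸ mul_mem e e1)
  · exact f2 p1 e
  · refine f2 (ps.mul p1) ?_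
    have := mul_mem e e1
    rwa [h.uv, mul_assoc v, mul_assoc v, e3] at this

theorem caseN : False := by
  obtain ⟨w, hw, wR⟩ := h.exists_w
  have r0 : ∀ x ∈ R, x * u = u * x → x * v = v * x := fun x hx e =>
    by_contra fun e' => (h.dich hw wR hx fun k => e' k.2).2.1 e
  have RR : R ≤ S ⊓ normalizer (R : Set G) := le_inf h.RS le_normalizer
  have step : ∀ s ∈ S ⊓ normalizer ((S ⊓ normalizer (R : Set G) : Subgroup G) : Set G),
      s ∉ S ⊓ normalizer (R : Set G) → s * t * s⁻¹ ∈ R ∧ s * v * s⁻¹ ∉ R := by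
    intro s hs s3
    have c' := h.c'.cj s
    have m1 := conj_mem_of_normalizes le_rfl hs.2 (RR h.tR)
    have m2 := conj_mem_of_normalizes le_rfl hs.2 (RR h.sw.uR)
    have u1 := h.c.cm_cj hs.1 h.tS h.tu
    have u2 := h.c.cm_cj hs.1 (h.RS h.sw.uR) h.uv.symm
    have k : ∀ {x}, P x (s * t * s⁻¹) → x * x = 1 → x * u = u * x → x ∉ R := fun {x} p xx e xR => by
      have cn := fun {y} (hy : y ∈ S) (e : x * y = y * x) =>
        (h.c.ps.cen p h.c.syl.pgroup (h.RS xR) m1.1 hy e.symm).symm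
      rcases h.memA (h.noP hr n (h.inE (h.RS xR) xx e (h.rt xR) (r0 x xR e)) (h.inE m1.1 c'.zz u1
        (cn h.tS (h.rt xR)) (cn (h.RS h.sw.uR) (r0 x xR e))) p) with e | e | e | e
      · exact c'.z1 e
      · exact h.cj_ne hs.1 e
      · exact s3 (RR (h.cases hs.1 e))
      · exact s3 ⟨hs.1, h.norm hs.1 (e.trans (h.c.zc t h.tS))⟩
    have k1 := k c'.pr c'.uu u2
    have k2 := k (h.c.ps.mul c'.pr) c'.swap.uu (Commute.mul_left u2 u1).eq
    refine ⟨h.cases m1.1 ?_, k1⟩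
    have d1 := (h.dich m2 k1 hr n).1
    have d2 := (h.dich (mul_mem m2 m1) k2 hr n).1
    refine cj_inj' (g := s * v * s⁻¹) ?_
    rw [d1, ← d2]; group
  obtain ⟨s, hs, s3⟩ := h.exists_s
  have k1 := (step s⁻¹ (inv_mem hs) fun e => s3 ((inv_mem_iff (x := s)).1 e)).1
  have k2 := cj_cm s (r0 _ k1 (h.c.cm_cj (inv_mem hs.1) h.tS h.tu))
  rw [show s * (s⁻¹ * t * s⁻¹⁻¹) * s⁻¹ = t by group] at k2
  exact (step s hs s3).2 (h.mem.2 ⟨mul_mem (mul_mem hs.1 (h.RS h.sw.uR)) (inv_mem hs.1), k2.symm⟩)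

end Sy2

theorem Sym.false [Finite G] (h : Sym P K m S S' R z u t v) (hG : ∀ H : Subgroup G, H.index ≠ 2) :
    False := by
  have h2 : Sy2 P K m S S' R z u t v := ⟨h, h.comm hG, h.symm.comm hG⟩
  refine h2.caseC fun r hr => ?_
  by_contra n
  exact h2.caseN hr n

theorem Loc.false [Finite G] (h : Loc S z u) (ps : PS P K) (pr : P u z)
    (hG : ∀ H : Subgroup G, H.index ≠ 2) (hz : ∃ g : G, g * z * g⁻¹ ∈ S ∧ g * z * g⁻¹ ≠ z) :
    False := by
  obtain ⟨t, ⟨tS, kt, tz⟩, tmax⟩ := Set.exists_max_image {k | k ∈ S ∧ K k ∧ k ≠ z}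
    (fun k => Nat.card ↥(S ⊓ centralizer {k})) (Set.toFinite _) (by
      obtain ⟨g, g1, g2⟩ := hz
      exact ⟨_, g1, ps.kc g (ps.k pr), g2⟩)
  obtain ⟨S', v, hs⟩ := Cfg.exists_sym ⟨h, ps, pr, fun k h1 h2 h3 => tmax k ⟨h1, h2, h3⟩⟩ tS kt tz rfl
  exact hs.false hG

end CL.NEx
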