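import Mathlib
import Cfsg.Agent.SYL.NEx1

/-! The central involution of the normal four-group is isolated in the centralizer of `u`. -/

set_option autoImplicit false

namespace CL.NEx

open Subgroup CL.MSS CL.MacW CL.SR16 Cfsg

variable {G : Type*} [Group G] {S : Subgroup G} {z u : G}

theorem sq_closure {s : Set G} (h1 : ∀ a ∈ s, a * a = 1) (h2 : ∀ a ∈ s, ∀ b ∈ s, a * b = b * a) :
    ∀ a ∈ Subgroup.closure s, a * a = 1 := by
  have k : Subgroup.closure s ≤ centralizer (Subgroup.closure s : Set G) := by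
    rw [centralizer_closure]; exact (closure_le _).2 fun a ha b hb => h2 b hb a ha
  intro a ha
  induction ha using closure_induction with
  | mem x hx => exact h1 x hx
  | one => exact mul_one _
  | mul x y hx hy e1 e2 => rw [mul_assoc, ← mul_assoc y, k hx y hy, mul_assoc, e2, mul_one, e1]
  | inv x _ e => rw [← mul_inv_rev, e, inv_one]

/-- the stabilizer of the coset `b ⟨z⟩` -/
def Loc.St (h : Loc S z u) (b : G) : Subgroup G where
  carrier := {a | a ∈ S ∧ (a * b * a⁻¹ = b ∨ a * b * a⁻¹ = b * z)}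
  one_mem' := ⟨one_mem _, Or.inl (by simp)⟩
  mul_mem' := fun {a c} ha hc => ⟨mul_mem ha.1 hc.1, by
    rw [show a * c * b * (a * c)⁻¹ = a * (c * b * c⁻¹) * a⁻¹ by group]
    rcases hc.2 with e | e <;> rw [e]
    · exact ha.2
    · rw [← conj_mul, h.cjz ha.1]
      rcases ha.2 with e | e <;> rw [e]
      · exact Or.inr rfl
      · exact Or.inl (by rw [mul_assoc, h.zz, mul_one])⟩
  inv_mem' := fun {a} ha => ⟨inv_mem ha.1, ha.2.imp (fun e => cj_inj' (g := a) (by rw [e]; group))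
    fun e => cj_inj' (g := a) (by
      rw [show a * (b * z) * a⁻¹ = a * b * a⁻¹ * (a * z * a⁻¹) by group, e, h.cjz ha.1, mul_assoc b,
        h.zz]
      group)⟩

theorem Loc.St_symm (h : Loc S z u) {a b : G} (ha : a ∈ h.St b) (hb : b ∈ S) : b ∈ h.St a :=
  ⟨hb, ha.2.imp (fun e => cj_eq.2 (cj_eq.1 e).symm) fun e => by
    rw [mul_inv_eq_iff_eq_mul] at e ⊢
    rw [mul_assoc, ← h.zc b hb, ← mul_assoc, e, mul_assoc, mul_assoc, h.zc a ha.1, ← mul_assoc z,
      h.zz, one_mul]⟩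

theorem Loc.St_two (h : Loc S z u) {a c b : G} (ha : a ∈ h.St b) (hc : c ∈ h.St b)
    (e1 : a * b ≠ b * a) (e2 : c * b ≠ b * c) : a * c * b = b * (a * c) := by
  rw [← cj_eq, show a * c * b * (a * c)⁻¹ = a * (c * b * c⁻¹) * a⁻¹ by group,
    hc.2.resolve_left fun e => e2 (cj_eq.1 e), ← conj_mul, ha.2.resolve_left fun e => e1 (cj_eq.1 e),
    h.cjz ha.1, mul_assoc, h.zz, mul_one]

/-- extension of `D` by an element `s` with square in `D` -/
def ext2 (D : Subgroup G) {s : G} (hs : s ∈ normalizer (D : Set G)) (ss : s * s ∈ D) :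
    Subgroup G where
  carrier := {x | x ∈ D ∨ s * x ∈ D}
  one_mem' := Or.inl (one_mem _)
  mul_mem' := by
    rintro a b (ha | ha) (hb | hb)
    · exact Or.inl (mul_mem ha hb)
    · exact Or.inr (by simpa [mul_assoc] using mul_mem (conj_mem_of_normalizes le_rfl hs ha) hb)
    · exact Or.inr (by simpa [mul_assoc] using mul_mem ha hb)
    · have := mul_mem (mul_mem (inv_mem ss) (conj_mem_of_normalizes le_rfl hs ha)) hb
      exact Or.inl (by simpa [mul_assoc] using this)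
  inv_mem' := by
    rintro a (ha | ha)
    · exact Or.inl (inv_mem ha)
    · have := mul_mem (conj_mem_of_normalizes le_rfl hs (inv_mem ha)) ss
      exact Or.inr (by simpa [mul_assoc] using this)

/-- the configuration with two conjugates `y`, `s y s⁻¹` of `z` generating a dihedral group -/
structure Di (S : Subgroup G) (z u y s : G) : Prop extends Loc S z u where
  n1 : ¬ IsConj z u
  sS : s ∈ S
  su : s * u ≠ u * s
  yS : y ∈ S
  yu : y * u = u * y
  ky : IsConj z y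
  st : ∀ w ∈ S, w * u = u * w → w ∈ toLoc.St y
  nc : y * (s * y * s⁻¹) ≠ s * y * s⁻¹ * y
  cu : ∀ w ∈ S, w * y = y * w → w * u = u * w
  mv : ∃ g ∈ normalizer ((S ⊓ centralizer {y} : Subgroup G) : Set G), g * z * g⁻¹ = y

namespace Di

variable {y s : G} (h : Di S z u y s)
include h

theorem yy : y * y = 1 := by
  obtain ⟨g, rfl⟩ := isConj_iff.1 h.ky
  rw [conj_mul, h.zz, mul_one, mul_inv_cancel]

theorem y1S : s * y * s⁻¹ ∈ S := mul_mem (mul_mem h.sS h.yS) (inv_mem h.sS)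

theorem y1u : s * y * s⁻¹ * u = u * (s * y * s⁻¹) := h.cm_cj h.sS h.yS h.yu

theorem su' : s⁻¹ * u ≠ u * s⁻¹ := fun e => h.su (Commute.inv_left_iff.1 e)

theorem st' {w : G} (wS : w ∈ S) (e : w * u = u * w) : w ∈ h.St (s * y * s⁻¹) := by
  have := (h.st _ (mul_mem (mul_mem (inv_mem h.sS) wS) (inv_mem (inv_mem h.sS)))
    (h.cm_cj (inv_mem h.sS) wS e)).2
  refine ⟨wS, ?_⟩
  rw [show w * (s * y * s⁻¹) * w⁻¹ = s * (s⁻¹ * w * s⁻¹⁻¹ * y * (s⁻¹ * w * s⁻¹⁻¹)⁻¹) * s⁻¹ by group]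
  exact this.imp (fun e => by rw [e]) fun e => by rw [e, ← conj_mul, h.cjz h.sS]

theorem out {x : G} (xS : x ∈ S) (e : x * u ≠ u * x) :
    (x * y * x⁻¹ = s * y * s⁻¹ ∨ x * y * x⁻¹ = s * y * s⁻¹ * z) ∧
      (x * (s * y * s⁻¹) * x⁻¹ = y ∨ x * (s * y * s⁻¹) * x⁻¹ = y * z) := by
  have k1 := (h.st' (mul_mem xS (inv_mem h.sS)) (h.two xS (inv_mem h.sS) e h.su')).2
  have k2 := (h.st _ (mul_mem xS h.sS) (h.two xS h.sS e h.su)).2
  rw [show x * s⁻¹ * (s * y * s⁻¹) * (x * s⁻¹)⁻¹ = x * y * x⁻¹ by group] at k1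
  rw [show x * s * y * (x * s)⁻¹ = x * (s * y * s⁻¹) * x⁻¹ by group] at k2
  exact ⟨k1, k2⟩

theorem e1 : s * y * s⁻¹ * y * (s * y * s⁻¹)⁻¹ = y * z :=
  (h.st _ h.y1S h.y1u).2.resolve_left fun e => h.nc (cj_eq.1 e).symm

variable [Finite G]

theorem cenU {c : G} (cS : c ∈ S) (e1 : c * y = y * c) (e2 : c * (s * y * s⁻¹) = s * y * s⁻¹ * c) :
    c ∈ fr z u := by
  set C := S ⊓ centralizer {y} ⊓ centralizer {s * y * s⁻¹}
  have zN : z ∉ sqc (S ⊓ centralizer {y}) := fun hz => by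
    obtain ⟨g, hg, e⟩ := h.mv
    have := cj_sqc (fun r hr => conj_mem_of_normalizes le_rfl hg hr) (conj_mem_cj hz)
    refine h.nc (mem_c.1 (sqc_le (W := centralizer {s * y * s⁻¹}) (fun r hr => mem_c.2 ?_) (e ▸ this)))
    have := h.st' hr.1 (h.cu r hr.1 (mem_c.1 hr.2))
    by_cases e : r * (s * y * s⁻¹) = s * y * s⁻¹ * r
    · exact (Commute.mul_left e e).eq
    · exact h.St_two this this e e
  have k : ∀ {c a b x}, c ∈ S → x ∈ S → c * a = a * c → x⁻¹ * b * x⁻¹⁻¹ = a ∨ x⁻¹ * b * x⁻¹⁻¹ = a * z →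
      x * c * x⁻¹ * b = b * (x * c * x⁻¹) := fun {c a b x} cS xS e e' => by
    have : c * (x⁻¹ * b * x⁻¹⁻¹) = x⁻¹ * b * x⁻¹⁻¹ * c := by
      rcases e' with e' | e' <;> rw [e']
      · exact e
      · exact (Commute.mul_right e (h.zc c cS)).eq
    simpa [mul_assoc] using cj_cm x this
  have Cn : ∀ x ∈ S, ∀ c ∈ C, x * c * x⁻¹ ∈ C := fun x xS c hc => by
    have m := mul_mem (mul_mem xS hc.1.1) (inv_mem xS)
    by_cases e : x⁻¹ * u = u * x⁻¹
    · exact ⟨⟨m, mem_c.2 (k hc.1.1 xS (mem_c.1 hc.1.2) (h.st _ (inv_mem xS) e).2)⟩,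
        mem_c.2 (k hc.1.1 xS (mem_c.1 hc.2) (h.st' (inv_mem xS) e).2)⟩
    · exact ⟨⟨m, mem_c.2 (k hc.1.1 xS (mem_c.1 hc.2) (h.out (inv_mem xS) e).1)⟩,
        mem_c.2 (k hc.1.1 xS (mem_c.1 hc.1.2) (h.out (inv_mem xS) e).2)⟩
  have hb : sqc C = ⊥ := by_contra fun hb => zN (sqc_le (R := C) (fun r hr => sq_mem_sqc hr.1)
    (h.z_mem ⟨s, h.sS, h.su⟩ (sqc_le fun r hr => mul_mem hr.1.1 hr.1.1)
      (le_normalizer_of_cj_le fun x hx => cj_sqc (Cn x hx)) hb))
  exact h.le_U (E := C) (inf_le_left.trans inf_le_left)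
    (le_normalizer_of_cj_le fun x hx => cj_le_iff_forall.2 (Cn x hx))
    (fun r hr => mem_bot.1 (hb ▸ sq_mem_sqc hr)) (fun r hr => h.cu r hr.1.1 (mem_c.1 hr.1.2))
    ⟨⟨cS, mem_c.2 e1⟩, mem_c.2 e2⟩

theorem cenY {c : G} (cS : c ∈ S) (e : c * y = y * c) : c ∈ fr z u ∨ y * c ∈ fr z u := by
  by_cases e' : c * (s * y * s⁻¹) = s * y * s⁻¹ * c
  · exact Or.inl (h.cenU cS e e')
  · exact Or.inr (h.cenU (mul_mem h.yS cS) (Commute.mul_left (Commute.refl y) e).eq
      (h.St_two (h.st' h.yS h.yu) (h.st' cS (h.cu c cS e)) h.nc e'))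

theorem false (hG : ∀ H : Subgroup G, H.index ≠ 2) : False := by
  have yy := h.yy
  have nc := h.nc
  have e1 := h.e1
  have y1S := h.y1S
  have y1u := h.y1u
  have yz := h.zc y h.yS
  have kc : ∀ {a} g, IsConj z a → IsConj z (g * a * g⁻¹) := fun g ha =>
    ha.trans (isConj_iff.2 ⟨g, rfl⟩)
  have e2 := (h.out h.sS h.su).2
  have cY := @h.cenY
  have st := h.st
  have out := @h.out
  set y1 := s * y * s⁻¹ with ey1
  have y1y1 : y1 * y1 = 1 := by rw [ey1, conj_mul, yy, mul_one, mul_inv_cancel]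
  have mF := @mem_fr _ _ _ _ h.zz yy yz
  have zF := left_mem_fr z y
  have yF := right_mem_fr z y
  have cF : ∀ {a}, a ∈ fr z y → y * a = a * y := fun ha => cm_of_sq (sq_fr h.zz yy yz) yF ha
  have nF : y1 ∈ normalizer (fr z y : Set G) := mem_normalizer_of_cj_le (cj_le_iff.2 (fr_le
    (by rw [mem_cj, inv_inv, h.cjz y1S]; exact zF) (by rw [mem_cj, inv_inv, e1]; exact mul_mem yF zF)))
  set D := ext2 (fr z y) nF (y1y1 ▸ one_mem _)
  have FD : fr z y ≤ D := fun _ ha => Or.inl ha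
  have y1D : y1 ∈ D := Or.inr (y1y1 ▸ one_mem _)
  have Dle : ∀ {H : Subgroup G}, z ∈ H → y ∈ H → y1 ∈ H → D ≤ H := fun h1 h2 h3 x hx =>
    hx.elim (fun e => fr_le h1 h2 e) fun e => (Subgroup.mul_mem_cancel_left _ h3).1 (fr_le h1 h2 e)
  have DW : D ≤ S ⊓ centralizer {u} :=
    Dle ⟨h.zS, mem_c.2 h.cm.symm⟩ ⟨h.yS, mem_c.2 h.yu⟩ ⟨y1S, mem_c.2 y1u⟩
  have y1F : y1 ∉ fr z y := fun e => nc (cF e)
  have kD : ∀ x ∈ D, x * x = 1 → x ≠ 1 → IsConj z x := by
    rintro x (hx | hx) xx x1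
    · rcases mF hx with e | e | e | e
      · exact absurd e x1
      · rw [e]
      · exact e ▸ h.ky
      · rw [e, ← e1]; exact kc _ h.ky
    have ex : ∀ {c}, y1 * x = c → x = y1 * c := fun e => by rw [← e, ← mul_assoc, y1y1, one_mul]
    have sq : y1 * y * (y1 * y) = z := by
      rw [← mul_assoc, ← inv_of_sq y1y1, inv_of_sq y1y1, show y1 * y * y1 = y * z by
        rw [← e1, inv_of_sq y1y1], yz, mul_assoc, yy, mul_one]
    rcases mF hx with e | e | e | e <;> rw [ex e] at xx ⊢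
    · rw [mul_one]; exact kc _ h.ky
    · rw [← (h.St_symm (st _ y1S y1u) h.yS).2.resolve_left fun e => nc (cj_eq.1 e)]
      exact kc _ (kc _ h.ky)
    · exact absurd (sq.symm.trans xx) h.z1
    · rw [← mul_assoc y1, mul_assoc _ z, ← h.zc _ (mul_mem (mul_mem y1S h.yS) h.zS), mul_assoc _ z,
        h.zz, mul_one, sq] at xx
      exact absurd xx h.z1
  have uD : u ∉ D := fun e => h.n1 (kD u e h.uu h.u1)
  have WD : ∀ w ∈ S, w * u = u * w → w ∈ D ∨ w * u ∈ D := by
    have k1 : ∀ w ∈ fr z u, w ∈ D ∨ w * u ∈ D := fun w hw => by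
      rcases h.memU hw with e | e | e | e <;> rw [e]
      · exact Or.inl (one_mem _)
      · exact Or.inl (FD zF)
      · exact Or.inr (h.uu ▸ one_mem _)
      · exact Or.inr (by rw [h.cm, mul_assoc, h.uu, mul_one]; exact FD zF)
    have k2 : ∀ {d w}, d ∈ D → d * w ∈ D ∨ d * w * u ∈ D → w ∈ D ∨ w * u ∈ D := fun hd e => by
      rwa [mul_assoc, D.mul_mem_cancel_left hd, D.mul_mem_cancel_left hd] at e
    have k3 : ∀ w ∈ S, w * y = y * w → w ∈ D ∨ w * u ∈ D := fun w wS e =>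
      (cY wS e).elim (k1 w) fun e => k2 (FD yF) (k1 _ e)
    intro w wS e
    by_cases e' : w * y = y * w
    · exact k3 w wS e'
    · exact k2 y1D (k3 _ (mul_mem y1S wS) (h.St_two (st _ y1S y1u) (st w wS e) nc.symm e'))
  have sy1 : s * y1 * s⁻¹ ∈ fr z y := by
    rcases e2 with e | e <;> rw [e]
    · exact yF
    · exact mul_mem yF zF
  have sD : s ∈ normalizer (D : Set G) := mem_normalizer_of_cj_le (cj_le_iff.2 (Dle
    (by rw [mem_cj, inv_inv, h.cjz h.sS]; exact FD zF) (by rw [mem_cj, inv_inv]; exact y1D)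
    (by rw [mem_cj, inv_inv]; exact FD sy1)))
  have ssD : s * s ∈ D := by
    refine (WD _ (mul_mem h.sS h.sS) (h.sq_cm h.sS)).resolve_right fun hd => ?_
    have ed : s * (s * s * u) * s⁻¹ = s * s * u * z := by
      rw [← conj_mul, h.toLoc.mv h.sS h.su]; group
    have ey : s * s * u * y * (s * s * u)⁻¹ = s * y1 * s⁻¹ := by
      rw [ey1, mul_assoc _ u, ← h.yu]; group
    generalize s * s * u = d at hd ed ey
    have n0 : s * d * s⁻¹ ≠ d := fun e => h.z1 (left_eq_mul.1 (e.symm.trans ed))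
    have sz := h.cjz h.sS
    rcases hd with hd | hd
    · have := ed ▸ mul_mem hd zF
      rcases mF hd with e | e | e | e <;> rw [e] at n0 this
      · exact n0 (by simp)
      · exact n0 sz
      · exact y1F this
      · rw [← conj_mul, sz] at this
        exact y1F ((Subgroup.mul_mem_cancel_right _ zF).1 this)
    have ex : ∀ {c}, y1 * d = c → d = y1 * c := fun e => by rw [← e, ← mul_assoc, y1y1, one_mul]
    have k : s * y1 * s⁻¹ = y * z := by
      rw [← ey, ex rfl, mul_assoc y1, ← cF hd, ← e1]; group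
    have k' : y * z * y1 = y1 * y := (mul_inv_eq_iff_eq_mul.1 e1).symm
    rcases mF hd with e | e | e | e <;> rw [ex e] at n0 ed
    · rw [mul_one] at ed
      exact y1F ((Subgroup.mul_mem_cancel_right _ zF).1 (ed ▸ sy1))
    · rw [← conj_mul, sz, mul_assoc y1, h.zz, mul_one] at ed
      exact y1F (ed ▸ mul_mem sy1 zF)
    · exact n0 (by rw [← conj_mul, k, k'])
    · exact n0 (by
        rw [show s * (y1 * (y * z)) * s⁻¹ = s * y1 * s⁻¹ * (s * y * s⁻¹) * (s * z * s⁻¹) by group,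
          k, sz, ← ey1, k', mul_assoc])
  have uM : u ∉ ext2 D sD ssD := fun e => e.elim uD fun e => h.su (by
    have := mem_c.1 (DW e).2
    rwa [← mul_assoc, mul_left_inj] at this)
  obtain ⟨T, rfl⟩ := sylIn_top_iff.1 h.syl
  obtain ⟨g, g1, g2⟩ := CL.P2.ext_transfer hG T (M := ext2 D sD ssD) (relIndex_eq_two_iff.2
    ⟨u, h.uS, fun b hb => by
      by_cases e : b ∈ ext2 D sD ssD
      · exact Or.inr ⟨e, fun e' => uM ((Subgroup.mul_mem_cancel_left _ e).1 e')⟩
      refine Or.inl ⟨?_, e⟩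
      by_cases e' : b * u = u * b
      · exact Or.inl ((WD b hb e').resolve_left fun k => e (Or.inl k))
      · exact Or.inr (mul_assoc s b u ▸ (WD _ (mul_mem h.sS hb)
          (h.two h.sS hb h.su e')).resolve_left fun k => e (Or.inr k))⟩)
    (fun x hx => hx.elim (fun e => (DW e).1) fun e => (Subgroup.mul_mem_cancel_left _ h.sS).1 (DW e).1)
    h.uS fun k a _ => by rw [pow_mul, sq, h.uu, one_pow, mul_one, mul_inv_cancel]; exact one_mem _
  have xx := (h.toLoc.cj g).uu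
  have xS := g2 u h.uS rfl
  have xu : g * u * g⁻¹ * u ≠ u * (g * u * g⁻¹) := fun e => g1.elim
    (fun k => h.n1 ((kD _ k xx (h.toLoc.cj g).u1).trans (isConj_iff.2 ⟨g, rfl⟩).symm)) fun k =>
      h.su (by
        have := mem_c.1 (DW k).2
        rwa [mul_assoc s, e, ← mul_assoc, ← mul_assoc u, mul_left_inj] at this)
  have c1 := cj_cm g h.yu
  have c2 := cj_cm g y1u
  have m1 := g2 y h.yS h.yu
  have m2 := g2 y1 y1S y1u
  have n3 : g * y * g⁻¹ * (g * y1 * g⁻¹) ≠ g * y1 * g⁻¹ * (g * y * g⁻¹) := fun e =>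
    nc (cj_inj' (by rwa [conj_mul, conj_mul] at e))
  generalize g * u * g⁻¹ = x at *
  generalize g * y * g⁻¹ = a at *
  generalize g * y1 * g⁻¹ = b at *
  have k0 : ∀ c ∈ (T : Subgroup G), c * x = x * c → c * y = y * c → c = 1 ∨ c = z := by
    intro c cS cx cy
    have kU : c ∈ fr z u := (cY cS cy).elim id fun e => by
      have := h.cjU xS (conj_mem_cj e)
      rw [← conj_mul, cj_eq.2 cx.symm] at this
      have m := mul_mem this (inv_mem e)
      rw [mul_inv_rev, ← mul_assoc, mul_inv_cancel_right] at m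
      have cy' : x * y * x⁻¹ ∈ centralizer {y} := by
        simpa using mul_mem (fr_le (H := centralizer {y}) (mem_c.2 yz.symm) (mem_c.2 h.yu.symm) m)
          (mem_c.2 rfl)
      refine absurd (mem_c.1 ?_).symm nc
      rcases (out xS xu).1 with e | e <;> rw [e] at cy'
      · exact cy'
      · exact (Subgroup.mul_mem_cancel_right _ (mem_c.2 yz.symm)).1 cy'
    rcases h.memU kU with e | e | e | e
    · exact Or.inl e
    · exact Or.inr e
    · exact absurd (e ▸ cx).symm xu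
    · rw [e, mul_assoc, ← h.zc x xS, ← mul_assoc, ← mul_assoc] at cx
      exact absurd (mul_right_cancel cx).symm xu
  have k1 : ∀ a ∈ (T : Subgroup G), ∀ b ∈ (T : Subgroup G), a * x = x * a → b * x = x * b →
      a * u = u * a → b * u = u * b → a * b = b * a := by
    intro a aS b bS ax bx au bu
    by_cases e : a * y = y * a
    · rcases k0 a aS ax e with rfl | rfl
      · simp
      · exact (h.zc b bS).symm
    by_cases e' : b * y = y * b
    · rcases k0 b bS bx e' with rfl | rfl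
      · simp
      · exact h.zc a aS
    have : Commute a (a * b) := by
      rcases k0 _ (mul_mem aS bS) (Commute.mul_left ax bx).eq
        (h.St_two (st a aS au) (st b bS bu) e e') with e | e <;> rw [e]
      · exact Commute.one_right a
      · exact h.zc a aS
    exact mul_left_cancel (this.eq.trans (mul_assoc a b a))
  have k2 : ∀ a ∈ (T : Subgroup G), a * x = x * a → ∃ a' ∈ (T : Subgroup G), a' * x = x * a' ∧
      a' * u = u * a' ∧ ∀ b, b * x = x * b → a' * b = b * a' → a * b = b * a := fun a aS ax => by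
    by_cases e : a * u = u * a
    · exact ⟨a, aS, ax, e, fun _ _ e => e⟩
    · refine ⟨x * a, mul_mem xS aS, (Commute.mul_left (Commute.refl x) ax).eq, h.two xS aS xu e,
        fun b bx e => ?_⟩
      rwa [← mul_assoc, bx, mul_assoc, mul_assoc, mul_right_inj] at e
  obtain ⟨a', a1, a2, a3, a4⟩ := k2 a m1 c1
  obtain ⟨b', b1, b2, b3, b4⟩ := k2 b m2 c2
  exact n3 (a4 b c2 (b4 a' a2 (k1 b' b1 a' a1 b2 a2 b3 a3)).symm)

end Di

end CL.NEx
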