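import Mathlib
import Cfsg.Agent.SYL.NEx5

/-! Isolation of `z` in a constrained centralizer of `u`. -/

set_option autoImplicit false

namespace CL.NEx

open Subgroup CL.MSS CL.MacW CL.SR16 Cfsg

variable {G : Type*} [Group G] {S : Subgroup G} {z u : G}

/-- non-fusion and constraint -/
structure Iso (S : Subgroup G) (z u : G) : Prop extends Loc S z u where
  n1 : ¬ IsConj z u
  n2 : ¬ IsConj z (u * z)
  sy : SylIn 2 (S ⊓ centralizer {u}) (centralizer {u})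
  pc : IsPConstrained 2 (centralizer {u} : Subgroup G)

/-- the conjugates of `z` under the centralizer of `u` lying in `S` -/
def Om (S : Subgroup G) (z u : G) : Set G := {y | y ∈ S ∧ ∃ g, g * u = u * g ∧ y = g * z * g⁻¹}

/-- the subgroup generated by these conjugates and `u` -/
def Ys (S : Subgroup G) (z u : G) : Subgroup G := Subgroup.closure (insert u (Om S z u))

theorem Om.k {y : G} (hy : y ∈ Om S z u) : IsConj z y := by
  obtain ⟨-, g, -, rfl⟩ := hy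
  exact isConj_iff.2 ⟨g, rfl⟩

theorem Om.cj {y w : G} (hy : y ∈ Om S z u) (wS : w ∈ S) (e : w * u = u * w) :
    w * y * w⁻¹ ∈ Om S z u := by
  obtain ⟨yS, g, e', rfl⟩ := hy
  exact ⟨mul_mem (mul_mem wS yS) (inv_mem wS), w * g, (Commute.mul_left e e').eq, by group⟩

theorem Om.mem {y : G} (hy : y ∈ Om S z u) : y ∈ Ys S z u := subset_closure (Or.inr hy)

theorem u_mem_Ys : u ∈ Ys S z u := subset_closure (Or.inl rfl)

namespace Iso

variable (h : Iso S z u)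
include h

theorem omu {y : G} (hy : y ∈ Om S z u) : y * u = u * y := by
  obtain ⟨-, g, e, rfl⟩ := hy
  have := cj_cm g h.cm
  rw [cj_eq.2 e] at this
  exact this.symm

theorem nk {y : G} (hy : y ∈ Om S z u) : ¬ IsConj z (u * y) := fun k => by
  obtain ⟨-, g, e, rfl⟩ := hy
  refine h.n2 (k.trans (isConj_iff.2 ⟨g, ?_⟩).symm)
  rw [← conj_mul, cj_eq.2 e]

theorem YW : Ys S z u ≤ S ⊓ centralizer {u} := (closure_le _).2 (by
  rintro y (rfl | hy)
  · exact ⟨h.uS, mem_c.2 rfl⟩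
  · exact ⟨hy.1, mem_c.2 (h.omu hy)⟩)

theorem UY : fr z u ≤ Ys S z u := fr_le (Om.mem ⟨h.zS, 1, by simp, by simp⟩) u_mem_Ys

theorem notU {y : G} (hy : y ∈ Om S z u) (yz : y ≠ z) : y ∉ fr z u := fun hU => by
  have := Om.k hy
  rcases h.memU hU with e | e | e | e <;> rw [e] at this
  · exact h.z1 (isConj_one_left.1 this)
  · exact yz e
  · exact h.n1 this
  · exact h.n2 this

variable [Finite G]

theorem Y2 : ∀ a ∈ Ys S z u, a * a = 1 := sq_closure (by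
    rintro y (rfl | ⟨-, g, -, rfl⟩)
    · exact h.uu
    · rw [conj_mul, h.zz, mul_one, mul_inv_cancel]) (by
    rintro a (rfl | ha) b (rfl | hb)
    · rfl
    · exact (h.omu hb).symm
    · exact h.omu ha
    · have k1 := h.YW (Om.mem ha)
      have k2 := h.YW (Om.mem hb)
      obtain ⟨-, g, e, rfl⟩ := ha
      obtain ⟨-, k, e', rfl⟩ := hb
      exact con h.pc h.sy ⟨h.zS, mem_c.2 h.cm.symm⟩ (fun w hw => h.zc w hw.1) (mem_c.2 e)
        (mem_c.2 e') k1 k2)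

omit h in
theorem eqY {w : G} (wS : w ∈ S) (e : w * u = u * w) : w •ᶜ Ys S z u = Ys S z u :=
  cj_eq_of_le (cj_le_iff.2 ((closure_le _).2 (by
    rintro y (rfl | hy) <;> rw [SetLike.mem_coe, mem_cj, inv_inv]
    · rw [cj_eq.2 e]; exact u_mem_Ys
    · exact Om.mem (Om.cj hy wS e))))

variable {s : G} (sS : s ∈ S) (su : s * u ≠ u * s)
include sS

theorem eqY' {w : G} (wS : w ∈ S) (e : w * u = u * w) :
    w •ᶜ s •ᶜ Ys S z u = s •ᶜ Ys S z u := by
  have := eqY (z := z) (mul_mem (mul_mem (inv_mem sS) wS) (inv_mem (inv_mem sS)))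
    (h.cm_cj (inv_mem sS) wS e)
  rw [← cj_mul, show w * s = s * (s⁻¹ * w * s⁻¹⁻¹) by group, cj_mul, this]

theorem YW' : s •ᶜ Ys S z u ≤ S ⊓ centralizer {u} := cj_le_iff_forall.2 fun x hx =>
  ⟨S.mul_mem (mul_mem sS (h.YW hx).1) (inv_mem sS), mem_c.2 (h.cm_cj sS (h.YW hx).1
    (mem_c.1 (h.YW hx).2))⟩

include su

theorem sw {x : G} (xS : x ∈ S) :
    (x •ᶜ Ys S z u = Ys S z u ∧ x •ᶜ s •ᶜ Ys S z u = s •ᶜ Ys S z u) ∨
      (x •ᶜ Ys S z u = s •ᶜ Ys S z u ∧ x •ᶜ s •ᶜ Ys S z u = Ys S z u) := by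
  by_cases e : x * u = u * x
  · exact Or.inl ⟨eqY xS e, h.eqY' sS xS e⟩
  refine Or.inr ⟨?_, by rw [← cj_mul, eqY (mul_mem xS sS) (h.two xS sS e su)]⟩
  rw [← mul_inv_cancel_left s x, cj_mul, eqY (mul_mem (inv_mem sS) xS)
    (h.two (inv_mem sS) xS (fun e => su (Commute.inv_left_iff.1 e)) e)]

theorem infU : Ys S z u ⊓ s •ᶜ Ys S z u ≤ fr z u :=
  h.le_U (inf_le_left.trans (h.YW.trans inf_le_left)) (fun x hx => mem_normalizer_iff_cj.2 (by
    rcases h.sw sS su hx with ⟨e, e'⟩ | ⟨e, e'⟩ <;> rw [cj_inf, e', e]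
    exact inf_comm _ _)) (fun a ha => h.Y2 a ha.1) fun a ha => mem_c.1 (h.YW ha.1).2

theorem st0 {a b : G} (ha : a ∈ Om S z u) (hb : b ∈ Om S z u) : a ∈ h.St (s * b * s⁻¹) := by
  have hb' : s * b * s⁻¹ ∈ s •ᶜ Ys S z u := conj_mem_cj (Om.mem hb)
  have bW := h.YW' sS hb'
  have kb : IsConj z (a * (s * b * s⁻¹) * a⁻¹) :=
    (Om.k hb).trans (isConj_iff.2 ⟨a * s, by group⟩)
  have nb : ¬ IsConj z (u * z * (s * b * s⁻¹)) := fun k => h.nk hb (k.trans (isConj_iff.2 ⟨s, by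
    rw [← conj_mul, h.mv sS su]⟩).symm)
  generalize s * b * s⁻¹ = c at *
  have m1 : c * a⁻¹ * c⁻¹ ∈ Ys S z u :=
    eqY (z := z) bW.1 (mem_c.1 bW.2) ▸ conj_mem_cj (inv_mem (Om.mem ha))
  have m2 : a * c * a⁻¹ ∈ s •ᶜ Ys S z u := h.eqY' sS ha.1 (h.omu ha) ▸ conj_mem_cj hb'
  have m := h.infU sS su (x := a * c * a⁻¹ * c⁻¹)
    ⟨by simpa [mul_assoc] using mul_mem (Om.mem ha) m1, Subgroup.mul_mem _ m2 (inv_mem hb')⟩
  refine ⟨ha.1, ?_⟩
  rcases h.memU m with e | e | e | e <;> rw [mul_inv_eq_iff_eq_mul] at e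
  · exact Or.inl (by rw [e, one_mul])
  · exact Or.inr (by rw [e, h.zc c bW.1])
  · refine absurd ((Om.k ha).trans (isConj_iff.2 ⟨c, ?_⟩)) (h.nk ha)
    have aa := inv_of_sq (h.Y2 a (Om.mem ha))
    rw [← h.omu ha, mul_inv_eq_iff_eq_mul, mul_assoc, ← e, aa, ← mul_assoc, ← mul_assoc,
      h.Y2 a (Om.mem ha), one_mul]
  · exact absurd (e ▸ kb) nb

theorem st1 {a b : G} (ha : a ∈ Ys S z u) (hb : b ∈ s •ᶜ Ys S z u) : a ∈ h.St b := by
  have aW := h.YW ha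
  refine h.St_symm (cj_le_iff.2 ((closure_le _).2 fun c hc => ?_) hb) aW.1
  have cW := h.YW' sS (conj_mem_cj (subset_closure hc))
  rw [SetLike.mem_coe, mem_cj, inv_inv]
  rcases hc with rfl | hc
  · refine ⟨cW.1, Or.inl (cj_eq.2 ?_)⟩
    rw [h.mv sS su]
    exact (Commute.mul_right (mem_c.1 aW.2) (h.zc a aW.1)).eq.symm
  refine h.St_symm ((closure_le (h.St _)).2 ?_ ha) cW.1
  rintro d (rfl | hd)
  · exact ⟨h.uS, Or.inl (cj_eq.2 (mem_c.1 cW.2).symm)⟩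
  · exact h.st0 sS su hd hc

theorem sqA {x : G} (hx : x ∈ Ys S z u ⊔ s •ᶜ Ys S z u) :
    ∃ a ∈ Ys S z u, ∃ b ∈ s •ᶜ Ys S z u, x * x = a * b * a⁻¹ * b ∧ b * b = 1 := by
  obtain ⟨a, ha, b, hb, rfl⟩ := mem_sup_cm (fun w hw => mem_normalizer_iff_cj.2
    (h.eqY' sS (h.YW hw).1 (mem_c.1 (h.YW hw).2))) hx
  refine ⟨a, ha, b, hb, by rw [inv_of_sq (h.Y2 a ha), ← mul_assoc], ?_⟩
  obtain ⟨c, hc, rfl⟩ := mem_cj'.1 hb
  rw [conj_mul, h.Y2 c hc, mul_one, mul_inv_cancel]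

theorem cardY : Nat.card (Ys S z u) < 16 := by
  have k1 := h.r16 _ (sup_le (h.YW.trans inf_le_left) ((h.YW' sS).trans inf_le_left)) (zpowers z)
    (zpowers_le.2 (mem_sup_left (h.UY (left_mem_fr _ _)))) fun x hx => by
      obtain ⟨a, ha, b, hb, e, bb⟩ := h.sqA sS su hx
      rcases (h.st1 sS su ha hb).2 with e' | e' <;> rw [e, e']
      · rw [bb]; exact one_mem _
      · rw [h.zc b (h.YW' sS hb).1, mul_assoc, bb, mul_one]; exact mem_zpowers z
  have k2 := CL.PN.card_sup_mul_card_inf (H := Ys S z u) (K := s •ᶜ Ys S z u)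
    fun w hw => mem_normalizer_iff_cj.2 (h.eqY' sS (h.YW hw).1 (mem_c.1 (h.YW hw).2))
  have k3 := card_le_of_le (h.infU sS su)
  have k4 := card_zpowers_le h.zz
  rw [h.U4] at k3
  rw [card_cj] at k2
  by_contra k5
  nlinarith [Nat.mul_le_mul (k1.trans (Nat.mul_le_mul_left 16 k4)) k3]

variable {y : G} (hy : y ∈ Om S z u) (yz : y ≠ z)
include hy yz

theorem memY {x : G} (hx : x ∈ Ys S z u) : x ∈ fr z u ∨ y * x ∈ fr z u := by
  have l1 : zpowers y ⊔ fr z u ≤ Ys S z u := sup_le (zpowers_le.2 (Om.mem hy)) h.UY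
  have yy := h.Y2 y (Om.mem hy)
  have k : Ys S z u ≤ zpowers y ⊔ fr z u := by_contra fun k => by
    have k1 := two_mul_le_card' l1 k
    have k2 := two_mul_le_card' (le_sup_right : fr z u ≤ zpowers y ⊔ fr z u) fun k =>
      h.notU hy yz (k (mem_sup_left (mem_zpowers y)))
    have k3 := h.cardY sS su
    rw [h.U4] at k2
    omega
  obtain ⟨a, ha, b, hb, rfl⟩ := mem_sup_cm ((zpowers_le.2 hy.1).trans h.Un) (k hx)
  rcases mem_zpowers_two yy ha with rfl | rfl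
  · exact Or.inl (by rwa [one_mul])
  · exact Or.inr (by rwa [← mul_assoc, yy, one_mul])

theorem nc : y * (s * y * s⁻¹) ≠ s * y * s⁻¹ * y := fun e => by
  have k : ∀ {c a}, c ∈ S → c * u = u * c → c * y = y * c → a ∈ Ys S z u → c * a = a * c :=
    fun {c a} cS cu cy ha => by
      have : fr z u ≤ centralizer {c} := fr_le (mem_c.2 (h.zc c cS).symm) (mem_c.2 cu.symm)
      refine (mem_c.1 ((h.memY sS su hy yz ha).elim (this ·) fun k => ?_)).symm
      exact (Subgroup.mul_mem_cancel_left _ (mem_c.2 cy.symm)).1 (this k)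
  refine h.notU hy yz (h.le_U (sup_le (h.YW.trans inf_le_left) ((h.YW' sS).trans inf_le_left))
    (fun x hx => mem_normalizer_iff_cj.2 (by
      rcases h.sw sS su hx with ⟨e, e'⟩ | ⟨e, e'⟩ <;> rw [cj_sup, e', e]
      exact sup_comm _ _)) (fun x hx => ?_)
    (fun a ha => mem_c.1 (sup_le h.YW (h.YW' sS) ha).2) (mem_sup_left (Om.mem hy)))
  obtain ⟨a, ha, b, hb, e', bb⟩ := h.sqA sS su hx
  obtain ⟨c, hc, rfl⟩ := mem_cj'.1 hb
  have aW := h.YW ha
  have yW := h.YW' sS (conj_mem_cj (Om.mem hy))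
  have e1 := k (mul_mem (mul_mem (inv_mem sS) aW.1) (inv_mem (inv_mem sS)))
    (h.cm_cj (inv_mem sS) aW.1 (mem_c.1 aW.2))
    (by simpa using (cj_cm' (k yW.1 (mem_c.1 yW.2) e.symm ha)).symm) hc
  rw [e', cj_eq.2 (by simpa [mul_assoc] using cj_cm s e1), bb]

theorem omz : y * z ∈ Om S z u := by
  have m : s * y * s⁻¹ ∈ s •ᶜ Ys S z u := conj_mem_cj (Om.mem hy)
  have yW := h.YW' sS m
  rw [← (h.St_symm (h.st1 sS su (Om.mem hy) m) yW.1).2.resolve_left fun e =>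
    h.nc sS su hy yz (cj_eq.1 e).symm]
  exact Om.cj hy yW.1 (mem_c.1 yW.2)

theorem om3 {x : G} (hx : x ∈ Om S z u) (xz : x ≠ z) : x = y ∨ x = y * z := by
  have yy := h.Y2 y (Om.mem hy)
  have ex : ∀ {c}, y * x = c → x = y * c := fun e => by rw [← e, ← mul_assoc, yy, one_mul]
  have k := Om.k hx
  rcases h.memU ((h.memY sS su hy yz (Om.mem hx)).resolve_left (h.notU hx xz)) with e | e | e | e
  · exact Or.inl (by rw [ex e, mul_one])
  · exact Or.inr (ex e)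
  · exact absurd (by rwa [ex e, h.omu hy] at k) (h.nk hy)
  · exact absurd (by rwa [ex e, ← mul_assoc, h.omu hy, mul_assoc] at k) (h.nk (h.omz sS su hy yz))

theorem di : Di S z u y s := by
  have : Fact (Nat.Prime 2) := ⟨Nat.prime_two⟩
  have cu : ∀ w ∈ S, w * y = y * w → w * u = u * w := fun w wS e => by_contra fun k =>
    h.nc wS k hy yz (by rw [cj_eq.2 e])
  refine ⟨h.toLoc, h.n1, sS, su, hy.1, h.omu hy, Om.k hy, fun w wS e => ⟨wS,
    h.om3 sS su hy yz (Om.cj hy wS e) fun k => yz (cj_inj' (k.trans (h.cjz wS).symm))⟩,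
    h.nc sS su hy yz, cu, ?_⟩
  obtain ⟨-, g, gu, e⟩ := id hy
  obtain ⟨k, ⟨k1, k2⟩, k3⟩ := (h.sy.inf_of_le (K := centralizer {z})
    fun w hw => mem_c.2 (h.zc w hw.1)).exists_conj_le (R := g⁻¹ •ᶜ (S ⊓ centralizer {y}))
    (isPGroup_cj _ (h.syl.pgroup.to_le inf_le_left)) (le_inf (cj_le_of_mem
      (fun w hw => mem_c.2 (cu w hw.1 (mem_c.1 hw.2))) (inv_mem (mem_c.2 gu)))
      (cj_le_iff.2 (by rw [inv_inv, cj_centralizer_singleton, ← e]; exact inf_le_right)))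
  rw [← cj_mul] at k3
  have ey : k * g⁻¹ * y * (k * g⁻¹)⁻¹ = z := by
    rw [e]; exact .trans (by group) (cj_eq.2 (mem_c.1 k2))
  have mu : k * g⁻¹ * u = u * (k * g⁻¹) := mem_c.1 (mul_mem k1 (inv_mem (mem_c.2 gu)))
  generalize k * g⁻¹ = m at *
  have m1 := (k3 (conj_mem_cj ⟨h.zS, mem_c.2 (h.zc y hy.1).symm⟩)).1
  refine ⟨m⁻¹, inv_mem (mem_normalizer_of_cj_le (cj_le_iff_forall.2 fun r hr => ?_)),
    by rw [← ey]; group⟩
  have rS := (k3 (conj_mem_cj hr)).1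
  have c := cj_cm m (h.zc r hr.1)
  refine ⟨rS, mem_c.2 ?_⟩
  rcases h.om3 sS su hy yz ⟨m1, m, mu, rfl⟩ fun k => yz (cj_inj' (ey.trans k.symm)) with k | k <;>
    rw [k] at c
  · exact c
  · rwa [mul_assoc y, ← h.zc _ rS, ← mul_assoc, ← mul_assoc, mul_left_inj] at c

omit sS su hy yz in
theorem iso (hG : ∀ H : Subgroup G, H.index ≠ 2) {g : G} (e : g * u = u * g)
    (hg : g * z * g⁻¹ ∈ S) : g * z * g⁻¹ = z := by_contra fun k => by
  by_cases hs : ∃ s ∈ S, s * u ≠ u * s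
  · obtain ⟨s, sS, su⟩ := hs
    exact (h.di sS su ⟨hg, g, e, rfl⟩ k).false hG
  push Not at hs
  exact h.notU ⟨hg, g, e, rfl⟩ k (h.le_U (h.YW.trans inf_le_left) (fun x hx =>
    mem_normalizer_iff_cj.2 (eqY hx (hs x hx))) h.Y2 (fun a ha => mem_c.1 (h.YW ha).2)
    (Om.mem ⟨hg, g, e, rfl⟩))

end Iso

end CL.NEx
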