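/- A frame in the extraspecial group `D₈ ∘ Q₈` and the action of `S₄` on it. -/
import Cfsg.Agent.SPOR.A10.JPin
import Cfsg.Agent.SPOR.LXV
import Cfsg.Agent.INV.ZStarCor

set_option autoImplicit false
set_option maxRecDepth 100000
set_option synthInstance.maxSize 2000
set_option linter.unusedSimpArgs false

namespace CL.P34

open CL.LX CL.CE CL.Reg CL.A10 CL.JQ Equiv

section

variable {Γ : Type*} [Group Γ] {B : Γ → Γ → ℤˣ} {s : Γ → ℤˣ}
  (hr : ∀ u v w, B u (v * w) = B u v * B u w) (hc : ∀ u v, B u v = B v u) (h1 : ∀ u, B u u = 1)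
  (hs : ∀ u v, s (u * v) = s u * s v * B u v)
include hr hc h1 hs

theorem pair_aux {u v : Γ} (h : B u v = -1) : ∃ u' v', B u' v' = -1 ∧ s u' = s v' ∧
    ∀ w, B w u = 1 → B w v = 1 → B w u' = 1 ∧ B w v' = 1 := by
  rcases Int.units_eq_one_or (s u) with a | a <;> rcases Int.units_eq_one_or (s v) with b | b
  · exact ⟨u, v, h, a.trans b.symm, fun _ c d => ⟨c, d⟩⟩
  · exact ⟨u, u * v, by simp [hr, h1, h], by simp [hs, a, b, h], fun _ c d => by simp [hr, c, d]⟩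
  · exact ⟨v, u * v, by simp [hr, h1, hc v u, h], by simp [hs, a, b, h],
      fun _ c d => by simp [hr, c, d]⟩
  · exact ⟨u, v, h, a.trans b.symm, fun _ c d => ⟨c, d⟩⟩

theorem frame_aux (h8 : ∀ u v w₁ w₂ w₃, s u = 1 → s v = 1 → B u v = 1 → B w₁ u = -1 → B w₂ v = -1 →
      B w₃ (u * v) = -1 → False) {a b x y : Γ} (hab : B a b = -1) (hax : B a x = 1)
    (hay : B a y = 1) (hxy : B x y = -1) :
    ∃ q : Fin 4 → Γ, (∀ i, s (q i) = 1) ∧ ∀ i j, i < j → B (q i) (q j) = -1 := by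
  have hl : ∀ u v w, B (u * v) w = B u w * B v w := fun u v w => by rw [hc, hr, hc w, hc w]
  have key : ∀ a b x y, B a b = -1 → B x y = -1 → B a x = 1 → B a y = 1 → B b x = 1 → B b y = 1 →
      s a = 1 → s b = 1 → s x = -1 → s y = -1 →
      ∃ q : Fin 4 → Γ, (∀ i, s (q i) = 1) ∧ ∀ i j, i < j → B (q i) (q j) = -1 :=
    fun a b x y e1 e2 e3 e4 e5 e6 e7 e8 e9 e10 => ⟨![a, b, a * b * x, a * b * y],
      fun i => by fin_cases i <;> simp [hs, hl, *], fun i j h => by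
        fin_cases i <;> fin_cases j <;> simp [hr, hl, h1, hc b a, hc x a, hc x b, *] at h ⊢⟩
  obtain ⟨b, e1, e5, e6⟩ : ∃ b, B a b = -1 ∧ B x b = 1 ∧ B y b = 1 := by
    rcases Int.units_eq_one_or (B x b) with c | c <;> rcases Int.units_eq_one_or (B y b) with d | d
    · exact ⟨b, hab, c, d⟩
    · exact ⟨b * x, by simp [hr, h1, hc y x, hab, hax, hxy, c, d]⟩
    · exact ⟨b * y, by simp [hr, h1, hab, hay, hxy, c, d]⟩
    · exact ⟨b * x * y, by simp [hr, h1, hc y x, hab, hax, hay, hxy, c, d]⟩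
  obtain ⟨a, b, e1, e7, k⟩ := pair_aux hr hc h1 hs e1
  obtain ⟨e3, e5⟩ := k x (hc _ _ ▸ hax) e5
  obtain ⟨e4, e6⟩ := k y (hc _ _ ▸ hay) e6
  obtain ⟨x, y, e2, e9, k⟩ := pair_aux hr hc h1 hs hxy
  obtain ⟨e3, e4⟩ := k a (hc _ _ ▸ e3) (hc _ _ ▸ e4)
  obtain ⟨e5, e6⟩ := k b (hc _ _ ▸ e5) (hc _ _ ▸ e6)
  clear k hab hax hay hxy
  rcases Int.units_eq_one_or (s b) with c | c <;> rcases Int.units_eq_one_or (s y) with d | d
  · exact (h8 a x b y b (e7.trans c) (e9.trans d) e3 (hc _ _ ▸ e1) (hc _ _ ▸ e2)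
      (by simp [hr, hc b a, *])).elim
  · exact key a b x y e1 e2 e3 e4 e5 e6 (e7.trans c) c (e9.trans d) d
  · exact key x y a b e2 e1 (hc _ _ ▸ e3) (hc _ _ ▸ e5) (hc _ _ ▸ e4) (hc _ _ ▸ e6) (e9.trans d) d
      (e7.trans c) c
  · exact (h8 (a * x) (b * y) b a a (by simp [hs, *]) (by simp [hs, *])
      (by simp [hr, hl, hc x b, *]) (by simp [hr, hc b a, *]) (by simp [hr, *])
      (by simp [hr, h1, *])).elim

end

variable {G : Type*} [Group G] [Finite G] {Q : Subgroup G} {z : G}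

theorem not_eight (h : ES Q z) (hQ : Nat.card Q = 32)
    (h8 : ∀ A ≤ Q, (∀ a ∈ A, a * a = 1) → Nat.card A ≠ 8) {u v : G} (hu : u ∈ Q) (hv : v ∈ Q)
    (hu2 : u * u = 1) (hv2 : v * v = 1) (e : u * v = v * u) (h1 : u ≠ 1 ∧ u ≠ z) (h2 : v ≠ 1 ∧ v ≠ z)
    (h3 : u * v ≠ 1 ∧ u * v ≠ z) : False := by
  have hle : Subgroup.closure {z, u, v} ≤ Q := (Subgroup.closure_le _).2 (by
    rintro _ (rfl | rfl | rfl); exacts [h.z_mem, hu, hv])
  have hc : IsMulCommutative (Subgroup.closure {z, u, v}) := Subgroup.isMulCommutative_closure (by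
    rintro _ (rfl | rfl | rfl) _ (rfl | rfl | rfl)
    exacts [rfl, (h.z_comm _ hu).symm, (h.z_comm _ hv).symm, h.z_comm _ hu, rfl, e, h.z_comm _ hv,
      e.symm, rfl])
  set A := Subgroup.closure {z, u, v}
  have hz : z ∈ A := Subgroup.subset_closure (by simp)
  refine h8 A hle (fun a ha => ?_) ?_
  · induction ha using Subgroup.closure_induction with
    | mem y hy => rcases hy with rfl | rfl | rfl; exacts [h.z_sq, hu2, hv2]
    | one => simp
    | mul a b ha hb k l => rw [mul_assoc, ← mul_assoc b, setLike_mul_comm hb ha, mul_assoc, l, mul_one, k]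
    | inv a _ k => rw [← mul_inv_rev, k, inv_one]
  have k1 := h.card_centralizer hle hz
  have k2 : Nat.card A ≤ Nat.card (Q ⊓ Subgroup.centralizer (A : Set G) : Subgroup G) :=
    Subgroup.card_le_of_le (le_inf hle fun a ha b hb => setLike_mul_comm (s := A) hb ha)
  have k3 := (BS.isKleinFour_closure_pair h.orderOf_z (orderOf_eq_two_of h1.1 hu2) h1.2.symm
    (h.z_comm u hu).symm).card_four
  have k4 : Subgroup.closure {z, u} < A := by
    refine lt_of_le_of_ne (Subgroup.closure_mono (by grind)) fun k => ?_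
    rcases (mem_closure_four h.z_sq hu2 (h.z_comm u hu).symm).1
      (k ▸ Subgroup.subset_closure (by simp) : v ∈ _) with l | l | l | l
    exacts [h2.1 l, h2.2 l, h3.1 (l ▸ hu2), h3.2 (by rw [l, ← h.z_comm u hu, ← mul_assoc, hu2, one_mul])]
  have k5 := Subgroup.card_dvd_of_le k4.le
  have k6 := mt (Subgroup.eq_of_le_of_card_ge k4.le) k4.ne
  rw [k3] at k5 k6
  have : Nat.card A * Nat.card A ≤ 8 * 8 := (Nat.mul_le_mul_right _ k2).trans (by omega)
  have := Nat.mul_self_le_mul_self_iff.1 this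
  omega

theorem exists_fr (h : ES Q z) (hQ : Nat.card Q = 32)
    (h8 : ∀ A ≤ Q, (∀ a ∈ A, a * a = 1) → Nat.card A ≠ 8) :
    ∃ q : Fin 4 → G, (∀ i, q i ∈ Q) ∧ (∀ i, q i * q i = 1) ∧
      ∀ i j, i < j → q i * q j ≠ q j * q i := by
  have ne : ∀ {u v : G}, u * v ≠ v * u ↔ sg u v = -1 := fun {u v} => by
    rw [Ne, ← sg_eq_one]; exact Int.units_ne_iff_eq_neg
  have nc : ∀ {u w : Q}, sg (w : G) u = -1 → (u : G) ≠ 1 ∧ (u : G) ≠ z := fun {u w} e =>
    ⟨fun k => ne.2 e (by simp [k]), fun k => ne.2 e (k ▸ h.z_comm _ w.2)⟩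
  obtain ⟨a, ha, b, hb, hab⟩ := h.nonab
  obtain ⟨x, hx, y, hy, e1, e2, e3⟩ := h.exists_not_comm_centralizer (by omega) ha
  obtain ⟨q, h1, h2⟩ := frame_aux (Γ := Q) (B := fun u v => sg (u : G) v) (s := fun u => A10.sq (u : G))
    (fun u v w => sg_mul h u.2 v.2 w.2) (fun u v => sg_comm _ _) (fun u => sg_eq_one.2 rfl)
    (fun u v => sq_mul h u.2 v.2) (fun u v _ _ _ k1 k2 k3 k4 k5 k6 => not_eight h hQ h8 u.2 v.2
      (sq_eq_one.1 k1) (sq_eq_one.1 k2) (sg_eq_one.1 k3) (nc k4) (nc k5) (nc k6))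
    (a := ⟨a, ha⟩) (b := ⟨b, hb⟩) (x := ⟨x, hx⟩) (y := ⟨y, hy⟩) (ne.1 hab) (sg_eq_one.2 e1)
    (sg_eq_one.2 e2) (ne.1 e3)
  exact ⟨fun i => q i, fun i => (q i).2, fun i => sq_eq_one.1 (h1 i), fun i j k => ne.2 (h2 i j k)⟩

theorem tri : ∀ a : Perm (Fin 5), a * a = 1 → ∀ b : Perm (Fin 5), b * b = 1 → (a * b) ^ 3 = 1 →
    ∀ c : Perm (Fin 5), c * c = 1 → (b * c) ^ 3 = 1 → (a * c) ^ 2 = 1 → a * c ≠ 1 →
    ∃ π : Perm (Fin 5), a * π = π * swap 0 1 ∧ b * π = π * swap 1 2 ∧ c * π = π * swap 2 3 := by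
  decide +kernel

noncomputable def idx (r : JQ.Q) : Fin 5 :=
  if r = qq 0 ∨ r = qq 0 * zq then 0 else if r = qq 1 ∨ r = qq 1 * zq then 1 else
  if r = qq 2 ∨ r = qq 2 * zq then 2 else if r = qq 3 ∨ r = qq 3 * zq then 3 else 4

theorem idx_spec : ∀ r, r * r = 1 → r = 1 ∨ r = zq ∨ ∃ b, r = qq (idx r) * cond b zq 1 := by
  decide +kernel
theorem idx_z : ∀ r b, idx (r * cond b zq 1) = idx r := by decide +kernel
theorem idx_q : ∀ i, idx (qq i) = i := by decide +kernel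
theorem gen2 : ∀ r, r = 1 ∨ r = zq ∨ ∃ i j, r = qq i ∨ r = qq i * zq ∨ r = qq i * qq j := by
  decide +kernel
theorem last4 : ∀ i, ∃ a ≠ i, ∃ b ≠ i, ∃ c ≠ i, ∃ d ≠ i, qq i = qq a * qq b * qq c * qq d := by
  decide +kernel
theorem adj : ∀ i (ε : Fin 5 → Bool), ∃ h, ∀ j ≠ i, h * (qq j * cond (ε j) zq 1) * h⁻¹ = qq j := by
  decide +kernel
theorem qker : ∀ k, k = 1 ∨ k = zq ∨ ∃ i, k * qq i * k⁻¹ * qq i = zq := by decide +kernel
theorem qrel : ∀ i, qq i * qq i = 1 ∧ (∀ j ≠ i, qq i * (qq j * (qq i * (qq j * zq))) = 1) ∧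
    ∀ h, ∃ b, h * qq i * h⁻¹ = qq i * cond b zq 1 := by decide +kernel

theorem exists_psi (h : ES Q z) (hQ : Nat.card Q = 32)
    (h8 : ∀ A ≤ Q, (∀ a ∈ A, a * a = 1) → Nat.card A ≠ 8) :
    ∃ ψ : JQ.Q →* G, Function.Injective ψ ∧ ψ.range = Q ∧ ψ zq = z := by
  obtain ⟨q, m, q2, an⟩ := exists_fr h hQ h8
  have ne : ∀ {u v : G}, u * v ≠ v * u ↔ sg u v = -1 := fun {u v} => by
    rw [Ne, ← sg_eq_one]; exact Int.units_ne_iff_eq_neg
  have s := fun i j k => ne.1 (an i j k)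
  have s' := fun i j k => (sg_comm _ _).trans (s i j k)
  have s1 : ∀ u : G, sg u u = 1 := fun u => sg_eq_one.2 rfl
  have m2 := Q.mul_mem (m 2) (m 3)
  have m1 := Q.mul_mem (m 1) m2
  have m0 := Q.mul_mem (m 0) m1
  set w := q 0 * (q 1 * (q 2 * q 3)) with hw
  have sw : ∀ i, sg (q i) w = -1 := fun i => by
    rw [hw, sg_mul h (m i) (m 0) m1, sg_mul h (m i) (m 1) m2, sg_mul h (m i) (m 2) (m 3)]
    fin_cases i <;> simp (disch := decide) [s, s', s1]
  have w2 : w * w = 1 := by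
    rw [← A10.sq_eq_one, hw, sq_mul h (m 0) m1, sq_mul h (m 1) m2, sq_mul h (m 2) (m 3),
      sg_mul h (m 0) (m 1) m2, sg_mul h (m 0) (m 2) (m 3), sg_mul h (m 1) (m 2) (m 3)]
    simp (disch := decide) [s, A10.sq_eq_one.2 (q2 _)]
  have anti : ∀ u ∈ Q, ∀ v ∈ Q, u * u = 1 → v * v = 1 → sg u v = -1 →
      u * (v * (u * (v * z))) = 1 := fun u hu v hv hu2 hv2 s => by
    have := h.mul_sq_of_not_comm hu hv (ne.2 s)
    rw [hu2, hv2, one_mul, one_mul] at this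
    rw [show u * (v * (u * (v * z))) = u * v * (u * v) * z by group, this, h.z_sq]
  have a := fun i j k => anti _ (m i) _ (m j) (q2 i) (q2 j) (s i j k)
  have b := fun i => anti _ (m i) _ m0 (q2 i) w2 (sw i)
  have zc : ∀ u ∈ Q, u * u = 1 → z * (u * (z * u)) = 1 := fun u hu hu2 => by
    rw [← h.z_comm u hu, ← mul_assoc u, hu2, one_mul, h.z_sq]
  have hP : Pres (lets [z, q 0, q 1, q 2, q 3, w]) JQ.iv JQ.Rels := by
    refine pres_lets _ ?_ rfl (by decide +kernel)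
    simp only [JQ.Rels, List.forall_mem_cons, List.not_mem_nil, ev, lets, List.map, List.getD_cons_zero,
      List.getD_cons_succ, List.prod_cons, List.prod_nil, mul_one, IsEmpty.forall_iff, implies_true,
      and_true]
    exact ⟨h.z_sq, q2 0, q2 1, q2 2, q2 3, w2, zc _ (m 0) (q2 0), zc _ (m 1) (q2 1), zc _ (m 2) (q2 2),
      zc _ (m 3) (q2 3), zc _ m0 w2, a 0 1 (by decide), a 0 2 (by decide), a 0 3 (by decide), b 0,
      a 1 2 (by decide), a 1 3 (by decide), b 1, a 2 3 (by decide), b 2, b 3,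
      by rw [← w2, hw]; group⟩
  obtain ⟨ψ, hψ, hw⟩ := JQ.Q_hom hP
  have ψz : ψ zq = z := by rw [← JQ.wd_z, hw _ (by decide)]; simp [ev, lets]
  have hi := inj_of_chk ψ (ψz ▸ h.z_ne) (fun k => (qker k).imp_right (Or.imp_right
    (Exists.imp fun _ => Or.inl))) fun i => by rw [← map_mul, (qrel i).1, map_one]
  refine ⟨ψ, hi, Subgroup.eq_of_le_of_card_ge (hψ ▸ gen_le_iff.2 (by
    simp [ev, lets, h.z_mem, m, m0])) ?_, ψz⟩
  rw [hQ, ← Nat.card_congr (MonoidHom.ofInjective hi).toEquiv, RG.card]; rfl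

/-- Coxeter generators permuting a frame -/
structure Cox (z : G) (q : Fin 4 → G) (a b c : G) : Prop where
  z2 : z * z = 1
  q2 : ∀ i, q i * q i = 1
  zq : ∀ i, q i * z = z * q i
  an : ∀ i j, j ≠ i → q i * (q j * (q i * (q j * z))) = 1
  za : a * z = z * a
  zb : b * z = z * b
  zc : c * z = z * c
  qa : ∀ i, a * q i * a⁻¹ = q (swap 0 1 i)
  qb : ∀ i, b * q i * b⁻¹ = q (swap 1 2 i)
  qc : ∀ i, c * q i * c⁻¹ = q (swap 2 3 i)
  cen : ∀ w, w * z = z * w → (∀ i, w * q i * w⁻¹ = q i) → w = 1 ∨ w = z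

theorem exists_cox (h : LX Q z) (hQ : Nat.card Q = 32)
    (h8 : ∀ A ≤ Q, (∀ a ∈ A, a * a = 1) → Nat.card A ≠ 8)
    (π : Subgroup.centralizer {z} →* Perm (Fin 4)) (hπ : Function.Surjective π)
    (hk : ∀ x, π x = 1 ↔ (x : G) ∈ Q) : ∃ q a b c, Cox z q a b c := by
  obtain ⟨ψ, hi, rfl, rfl⟩ := exists_psi h.toES hQ h8
  let C := Subgroup.centralizer {ψ zq}
  have cz := fun c : C => Subgroup.mem_centralizer_singleton_iff.1 c.2
  have cb : ∀ (c : C) b, c * ψ (cond b zq 1) * (c : G)⁻¹ = ψ (cond b zq 1) := fun c b => by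
    cases b <;> simp [cz]
  choose ρ hρ using fun (c : C) r => h.norm c (cz c) _ ⟨r, rfl⟩
  have sp : ∀ c i, ∃ b, ρ c (qq i) = qq (idx (ρ c (qq i))) * cond b zq 1 := fun c i =>
    ((idx_spec _ (hi (by rw [map_mul, hρ, conj_mul, ← map_mul, (qrel i).1]; simp))).resolve_left
      fun e => (JQ.ne i).1 (hi (by simpa [hρ] using congrArg ψ e))).resolve_left
      fun e => (JQ.ne i).2 (hi (by simpa [hρ, mul_inv_eq_iff_eq_mul, ← cz] using congrArg ψ e))
  let σ : C →* Perm (Fin 5) := MonoidHom.toHomPerm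
    { toFun := fun c i => idx (ρ c (qq i))
      map_one' := funext fun i => (congrArg idx (hi (by simp [hρ]))).trans (idx_q i)
      map_mul' := fun c d => funext fun i => by
        obtain ⟨b, hb⟩ := sp d i
        refine Eq.trans (congrArg idx (hi ?_)) (idx_z (ρ c (qq (idx (ρ d (qq i))))) b)
        rw [map_mul, hρ, hρ, ← cb c, conj_mul, ← map_mul, ← hb, hρ]
        push_cast; group }
  have cen : ∀ i w, w * ψ zq = ψ zq * w → (∀ j ≠ i, w * ψ (qq j) * w⁻¹ = ψ (qq j)) →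
      w = 1 ∨ w = ψ zq := fun i w hw H => h.self_cent w (by
    have k : ∀ j, Commute w (ψ (qq j)) := fun j => by
      have k := fun j hj => show Commute w _ from mul_inv_eq_iff_eq_mul.1 (H j hj)
      by_cases e : j = i
      · obtain ⟨a, ha, b, hb, c, hc, d, hd, l⟩ := last4 i
        rw [e, l, map_mul, map_mul, map_mul]
        exact (((k a ha).mul_right (k b hb)).mul_right (k c hc)).mul_right (k d hd)
      · exact k j e
    rintro _ ⟨r, rfl⟩
    rcases gen2 r with rfl | rfl | ⟨i, j, rfl | rfl | rfl⟩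
    exacts [by simp, hw, k i, map_mul ψ _ _ ▸ (k i).mul_right hw, map_mul ψ _ _ ▸ (k i).mul_right (k j)])
  have ad : ∀ (c : C) i, ∃ y, (ψ y * c) * ψ zq = ψ zq * (ψ y * c) ∧
      ∀ j ≠ i, (ψ y * c) * ψ (qq j) * (ψ y * c)⁻¹ = ψ (qq (σ c j)) := fun c i => by
    choose b hb using sp c
    obtain ⟨y, hy⟩ := adj (σ c i) fun j => b ((σ c).symm j)
    refine ⟨y, by rw [mul_assoc, cz, ← mul_assoc, h.z_comm _ ⟨y, rfl⟩, mul_assoc], fun j hj => ?_⟩
    rw [← hy _ ((σ c).injective.ne hj), Equiv.symm_apply_apply, map_mul, map_mul ψ y, map_inv]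
    erw [← hb j, hρ]; group
  have k1 : ∀ c, π c = 1 ↔ σ c = 1 := fun c => (hk c).trans ⟨fun ⟨y, hy⟩ => Equiv.ext fun i => by
      obtain ⟨b, hb⟩ := (qrel i).2.2 y
      refine Eq.trans (congrArg idx (hi ?_)) ((idx_z _ b).trans (idx_q i))
      rw [hρ, ← hb, ← hy]; simp, fun e => by
    obtain ⟨y, h1, h2⟩ := ad c 0
    refine (ψ.range.mul_mem_cancel_left ⟨y, rfl⟩).1 ?_
    rcases cen 0 _ h1 (by simpa [e] using h2) with k | k <;> rw [k]
    exacts [one_mem _, h.z_mem]⟩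
  obtain ⟨a, ha⟩ := hπ (swap 0 1)
  obtain ⟨b, hb⟩ := hπ (swap 1 2)
  obtain ⟨c, hc⟩ := hπ (swap 2 3)
  obtain ⟨p, pa, pb, pc⟩ := tri (σ a) (by rw [← map_mul, ← k1, map_mul, ha]; decide) (σ b)
    (by rw [← map_mul, ← k1, map_mul, hb]; decide)
    (by rw [← map_mul, ← map_pow, ← k1, map_pow, map_mul, ha, hb]; decide) (σ c)
    (by rw [← map_mul, ← k1, map_mul, hc]; decide)
    (by rw [← map_mul, ← map_pow, ← k1, map_pow, map_mul, hb, hc]; decide)
    (by rw [← map_mul, ← map_pow, ← k1, map_pow, map_mul, ha, hc]; decide)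
    (by rw [← map_mul, Ne, ← k1, map_mul, ha, hc]; decide)
  obtain ⟨a', a1, a2⟩ := ad a (p 4)
  obtain ⟨b', b1, b2⟩ := ad b (p 4)
  obtain ⟨c', c1, c2⟩ := ad c (p 4)
  have n4 : ∀ i : Fin 4, p i.castSucc ≠ p 4 := fun i => p.injective.ne (Fin.castSucc_ne_last i)
  refine ⟨fun i => ψ (qq (p i.castSucc)), _, _, _, h.z_sq,
    fun i => by rw [← map_mul, (qrel _).1, map_one], fun i => h.z_comm _ ⟨_, rfl⟩,
    fun i j k => by simpa using congrArg ψ ((qrel _).2.1 _ (p.injective.ne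
      ((Fin.castSucc_injective 4).ne k))), a1, b1, c1,
    fun i => ?_, fun i => ?_, fun i => ?_, fun w hw H => cen (p 4) w hw fun j hj => ?_⟩
  · rw [a2 _ (n4 i), ← Perm.mul_apply, pa]; fin_cases i <;> rfl
  · rw [b2 _ (n4 i), ← Perm.mul_apply, pb]; fin_cases i <;> rfl
  · rw [c2 _ (n4 i), ← Perm.mul_apply, pc]; fin_cases i <;> rfl
  · obtain ⟨j, rfl⟩ := p.surjective j
    obtain ⟨j, rfl⟩ := Fin.exists_castSucc_eq.2 (mt (congrArg p) hj)
    exact H j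

end CL.P34
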